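import Cfsg.Agent.Transfer.Flavell.Basic
import Cfsg.Agent.FGS4.FreeModule.Abelian
import Mathlib.Algebra.Module.ZMod

/-! The Frobenius action on an elementary abelian subgroup is free over the complement. -/

set_option autoImplicit false
set_option linter.unusedSectionVars false
set_option linter.style.haveILetI false

namespace Cfsg.Agent.Transfer.Flavell

open Subgroup

universe u

/-- Automorphisms of an abelian group of exponent `q` as linear maps. -/
def toEnd {A : Type*} [CommGroup A] (q : ℕ) [Fact q.Prime] [Module (ZMod q) (Additive A)] :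
    MulAut A →* Module.End (ZMod q) (Additive A) where
  toFun f :=
    { MonoidHom.toAdditive f.toMonoidHom with
      map_smul' := fun c v => ZMod.map_smul (MonoidHom.toAdditive f.toMonoidHom) c v }
  map_one' := LinearMap.ext fun _ => rfl
  map_mul' _ _ := LinearMap.ext fun _ => rfl

theorem toEnd_apply {A : Type*} [CommGroup A] (q : ℕ) [Fact q.Prime] [Module (ZMod q) (Additive A)] (f : MulAut A)
    (v : Additive A) : toEnd q f v = Additive.ofMul (f (Additive.toMul v)) := rfl

/-- A free action, with the module structure given. -/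
theorem card_of_frobenius_aux {A D P : Type*} [CommGroup A] [Finite A] [Group D] [Finite D] [Group P]
    [Fintype P] {q : ℕ} [Fact q.Prime] [Module (ZMod q) (Additive A)] (σ : P →* MulAut A) (τ : D →* MulAut A)
    (α : P →* MulAut D) (hcompat : ∀ h d a, σ h (τ d a) = τ (α h d) (σ h a))
    (hcomm : ∀ d e a, τ d (τ e a) = τ e (τ d a)) (hqD : ¬ q ∣ Nat.card D)
    (hfix : ∀ a : A, (∀ d, τ d a = a) → a = 1)
    (hfpf : ∀ h : P, h ≠ 1 → ∀ d : D, α h d = d → d = 1) (hcop : (Nat.card P).Coprime (Nat.card D)) :
    Nat.card A = Nat.card {a : A // ∀ h, σ h a = a} ^ Nat.card P := by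
  haveI : Module.Finite (ZMod q) (Additive A) := Module.Finite.of_finite
  let e := toEnd (A := A) q
  let σ' : P →* Module.End (ZMod q) (Additive A) :=
    { toFun := fun h => e (σ h)
      map_one' := by rw [map_one, map_one]
      map_mul' := fun a b => by rw [map_mul, map_mul] }
  let τ' : D →* Module.End (ZMod q) (Additive A) :=
    { toFun := fun d => e (τ d)
      map_one' := by rw [map_one, map_one]
      map_mul' := fun a b => by rw [map_mul, map_mul] }
  have hσa : ∀ h v, σ' h v = Additive.ofMul (σ h (Additive.toMul v)) := fun h v => rfl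
  have hfree : FGS4.FreeModule.IsFree σ' := by
    refine FGS4.FreeModule.isFree_of_abelian σ' τ' α
      (fun h d => LinearMap.ext fun v => Additive.toMul.injective (hcompat h d (Additive.toMul v)))
      (fun a b => LinearMap.ext fun v => Additive.toMul.injective (hcomm a b (Additive.toMul v)))
      ?_ (fun v hv => Additive.toMul.injective (hfix _ fun d => congrArg Additive.toMul (hv d))) hfpf hcop
    rwa [Ne, ZMod.natCast_eq_zero_iff]
  obtain ⟨W, huniq, hex⟩ := hfree
  classical
  let Φ : (P → W) → Additive A := fun f => ∑ h, σ' h (f h : Additive A)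
  have hΦ : Function.Bijective Φ := by
    refine ⟨fun f g e => funext fun h => Subtype.ext ?_, fun v => ?_⟩
    · have := huniq (fun h => (f h : Additive A) - g h) (fun h => W.sub_mem (f h).2 (g h).2) (by
        simp only [map_sub, Finset.sum_sub_distrib]
        exact sub_eq_zero.2 e)
      exact sub_eq_zero.1 (congrFun this h)
    · obtain ⟨f, hf, hv⟩ := hex v
      exact ⟨fun h => ⟨f h, hf h⟩, hv⟩
  have hsmul : ∀ (a : P) (f : P → W), σ' a (Φ f) = Φ (fun h => f (a⁻¹ * h)) := by
    intro a f
    show σ' a (∑ h, σ' h (f h : Additive A)) = ∑ h, σ' h (f (a⁻¹ * h) : Additive A)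
    rw [map_sum]
    refine Fintype.sum_equiv (Equiv.mulLeft a) _ _ fun h => ?_
    rw [Equiv.coe_mulLeft, inv_mul_cancel_left, map_mul]
    rfl
  let Ψ : W → {a : A // ∀ h, σ h a = a} := fun w => ⟨Additive.toMul (Φ fun _ => w), fun h => by
    have e := congrArg Additive.toMul (hsmul h (fun _ => w))
    rw [hσa] at e
    exact e⟩
  have hΨ : Function.Bijective Ψ := by
    refine ⟨fun a b e => ?_, fun v => ?_⟩
    · exact congrFun (hΦ.1 (Additive.toMul.injective (congrArg Subtype.val e))) 1
    · obtain ⟨f, hf⟩ := hΦ.2 (Additive.ofMul v.1)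
      have hfixed : ∀ a, (fun h => f (a⁻¹ * h)) = f := by
        intro a
        refine hΦ.1 ?_
        rw [← hsmul, hf, hσa, toMul_ofMul, v.2 a]
      have hconst : f = fun _ => f 1 := funext fun h => by
        have := congrFun (hfixed h) h
        rw [inv_mul_cancel] at this
        exact this.symm
      refine ⟨f 1, Subtype.ext ?_⟩
      show Additive.toMul (Φ fun _ => f 1) = v.1
      rw [← hconst, hf, toMul_ofMul]
  rw [show Nat.card A = Nat.card (Additive A) from Nat.card_congr Additive.ofMul,
    ← Nat.card_eq_of_bijective Φ hΦ, Nat.card_fun, Nat.card_eq_of_bijective Ψ hΨ]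

/-- A free action: the order is the power of the number of fixed points. -/
theorem card_of_frobenius {A D P : Type*} [CommGroup A] [Finite A] [Group D] [Finite D] [Group P]
    [Fintype P] {q : ℕ} [Fact q.Prime] (hA : ∀ a : A, a ^ q = 1) (σ : P →* MulAut A) (τ : D →* MulAut A)
    (α : P →* MulAut D) (hcompat : ∀ h d a, σ h (τ d a) = τ (α h d) (σ h a))
    (hcomm : ∀ d e a, τ d (τ e a) = τ e (τ d a)) (hqD : ¬ q ∣ Nat.card D)
    (hfix : ∀ a : A, (∀ d, τ d a = a) → a = 1)
    (hfpf : ∀ h : P, h ≠ 1 → ∀ d : D, α h d = d → d = 1) (hcop : (Nat.card P).Coprime (Nat.card D)) :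
    Nat.card A = Nat.card {a : A // ∀ h, σ h a = a} ^ Nat.card P :=
  @card_of_frobenius_aux A D P _ _ _ _ _ _ q _
    (AddCommGroup.zmodModule (G := Additive A) (n := q) fun v => Additive.toMul.injective (hA (Additive.toMul v)))
    σ τ α hcompat hcomm hqD hfix hfpf hcop

variable {H : Type u} [Group H] [Finite H] {x : MulAut H} {p : ℕ} [Fact p.Prime]

/-- Conjugation on a normalized subgroup. -/
noncomputable def conjRes (V R : Subgroup H) (hn : R ≤ normalizer (V : Set H)) : R →* MulAut V where
  toFun r := res (MulAut.conj (r : H)) (S := V) fun v hv => (mem_normalizer_iff.mp (hn r.2) v).mp hv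
  map_one' := MulEquiv.ext fun v => Subtype.ext (by simp [res])
  map_mul' a b := MulEquiv.ext fun v => Subtype.ext (by simp [res, mul_assoc])

/-- The powers of `x` on an invariant subgroup. -/
noncomputable def zRes (x : MulAut H) {S : Subgroup H} (hS : Inv x S) : Subgroup.zpowers x →* MulAut S where
  toFun a := res (a : MulAut H) (S := S) (inv_zpowers hS a.2)
  map_one' := MulEquiv.ext fun r => Subtype.ext (by simp [res])
  map_mul' a b := MulEquiv.ext fun r => Subtype.ext (by simp [res, mul_assoc])

theorem card_eq_fixd_pow (hox : orderOf x = p) (hcop : (Nat.card H).Coprime p) {q : ℕ} [Fact q.Prime]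
    {V R : Subgroup H} (hV : Inv x V) (hR : Inv x R)
    (hVc : ∀ a ∈ V, ∀ b ∈ V, a * b = b * a) (hVq : ∀ a ∈ V, a ^ q = 1)
    (hRc : ∀ a ∈ R, ∀ b ∈ R, a * b = b * a) (hn : R ≤ normalizer (V : Set H))
    (hqR : (Nat.card R).Coprime q) (hfix : ∀ v ∈ V, (∀ r ∈ R, r * v * r⁻¹ = v) → v = 1)
    (hfpf : ∀ r ∈ R, x r = r → r = 1) :
    Nat.card V = Nat.card (V ⊓ fixd x : Subgroup H) ^ p := by
  haveI : Finite (MulAut H) := Finite.of_injective (fun e => (e : H → H)) DFunLike.coe_injective
  haveI := Fintype.ofFinite (Subgroup.zpowers x)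
  letI myInst_cg : CommGroup V := { (inferInstance : Group V) with
    mul_comm := fun a b => Subtype.ext (hVc _ a.2 _ b.2) }
  have h := card_of_frobenius (A := V) (D := R) (P := Subgroup.zpowers x) (q := q)
    (fun a => Subtype.ext (hVq _ a.2)) (zRes x hV) (conjRes V R hn) (zRes x hR)
    (fun a d v => Subtype.ext (show (a : MulAut H) ((d : H) * v * (d : H)⁻¹) =
      (a : MulAut H) d * (a : MulAut H) v * ((a : MulAut H) d)⁻¹ by rw [map_mul, map_mul, map_inv]))
    (fun a b v => Subtype.ext (show (a : H) * ((b : H) * v * (b : H)⁻¹) * (a : H)⁻¹ =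
      (b : H) * ((a : H) * v * (a : H)⁻¹) * (b : H)⁻¹ by
      have hab := hRc _ a.2 _ b.2
      calc (a : H) * ((b : H) * v * (b : H)⁻¹) * (a : H)⁻¹ = ((a : H) * b) * v * ((a : H) * b)⁻¹ := by group
        _ = ((b : H) * a) * v * ((b : H) * a)⁻¹ := by rw [hab]
        _ = _ := by group))
    ((Fact.out : q.Prime).coprime_iff_not_dvd.mp hqR.symm)
    (fun v hv => Subtype.ext (hfix v v.2 fun r hr => congrArg Subtype.val (hv ⟨r, hr⟩)))
    (fun a ha r hr => by
      have hr' : (a : MulAut H) r = r := congrArg Subtype.val hr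
      refine Subtype.ext (hfpf r r.2 ?_)
      have hgen : Subgroup.zpowers (a : MulAut H) = Subgroup.zpowers x := by
        refine Subgroup.eq_of_le_of_card_ge (Subgroup.zpowers_le.mpr a.2) ?_
        rw [Nat.card_zpowers, Nat.card_zpowers, hox]
        rcases (Nat.dvd_prime (Fact.out : p.Prime)).mp (hox ▸ orderOf_dvd_of_mem_zpowers a.2) with e | e
        · exact absurd (Subtype.ext (orderOf_eq_one_iff.mp e) : a = 1) ha
        · exact e.ge
      obtain ⟨i, hi⟩ := mem_powers_iff_mem_zpowers.mpr (hgen.ge (Subgroup.mem_zpowers x))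
      rw [← hi]
      exact pow_fix (x := (a : MulAut H)) hr' i)
    (by rw [Nat.card_zpowers, hox]
        exact (hcop.coprime_dvd_left (Subgroup.card_subgroup_dvd_card R)).symm)
  rw [Nat.card_zpowers, hox] at h
  rw [h]
  congr 1
  refine Nat.card_congr
    { toFun := fun v => ⟨v.1.1, v.1.2, congrArg Subtype.val (v.2 ⟨x, Subgroup.mem_zpowers x⟩)⟩
      invFun := fun v => ⟨⟨v.1, v.2.1⟩, fun a => Subtype.ext (by
        obtain ⟨i, hi⟩ := mem_powers_iff_mem_zpowers.mpr a.2
        show (a : MulAut H) v.1 = v.1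
        rw [← hi]
        exact pow_fix v.2.2 i)⟩
      left_inv := fun v => rfl
      right_inv := fun v => rfl }

end Cfsg.Agent.Transfer.Flavell
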