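import Cfsg.Agent.Transfer.Flavell.Tools
import Cfsg.Agent.Transfer.Flavell.Freeness
import Cfsg.Agent.Coprime.PxQ

/-! Flavell's lemma: the case of a noncentral minimal invariant normal subgroup. -/

set_option autoImplicit false
set_option linter.unusedSectionVars false
set_option linter.style.haveILetI false

namespace Cfsg.Agent.Transfer.Flavell.Hyp

open Subgroup Cfsg.Agent.Transfer.Flavell
open scoped commutatorElement

universe u

variable {H : Type u} [Group H] [Finite H] {x : MulAut H} {p : ℕ} [Fact p.Prime]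

/-- The configuration `H = V R` with a proper complement: fixed points of `V` lie in the kernel. -/
theorem false_of_proper (hy : Hyp x p) {q r : ℕ} [Fact q.Prime] [Fact r.Prime] (hrq : r ≠ q)
    {V R : Subgroup H} (hVn : V.Normal) (hVi : Inv x V) (hV0 : V ≠ ⊥)
    (hVc : ∀ a ∈ V, ∀ b ∈ V, a * b = b * a) (hVq : IsPGroup q V) (hRi : Inv x R) (hRr : IsPGroup r R)
    (hfix : ∀ v ∈ V, (∀ t ∈ R, t * v = v * t) → v = 1) (hne : V ⊔ R ≠ ⊤) : False := by
  haveI := hy.sol
  haveI := hVn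
  have hnV : ∀ A : Subgroup H, A ≤ normalizer (V : Set H) := fun A => by
    rw [Subgroup.normalizer_eq_top V]; exact le_top
  have hcopR : ∀ A : Subgroup H, A ≤ R → ∀ B : Subgroup H, B ≤ V → (Nat.card A).Coprime (Nat.card B) :=
    fun A hA B hB => (IsPGroup.coprime_card_of_ne r q hrq R V hRr hVq).coprime_dvd_left
      (Subgroup.card_dvd_of_le hA) |>.coprime_dvd_right (Subgroup.card_dvd_of_le hB)
  set R1 := comS x R with hR1
  have hR1i : Inv x R1 := comS_inv hRi
  have hR1R : R1 ≤ R := comS_le hRi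
  set R0 := R ⊓ fixd x with hR0
  set S := V ⊔ R with hS
  have hSi : Inv x S := inv_sup hVi hRi
  set X := comS x S with hX
  have hVR1X : ⁅V, R1⁆ ≤ X := by
    rw [Subgroup.commutator_le]
    intro a ha b hb
    have hbX : b ∈ X := comS_mono le_sup_right hb
    rw [commutatorElement_def]
    exact mul_mem ((mem_normalizer_iff.mp (le_normalizer_comS S (Subgroup.mem_sup_left ha)) b).mp hbX)
      (inv_mem hbX)
  have hVR1V : ⁅V, R1⁆ ≤ V := Subgroup.commutator_le_left V R1
  set D := V ⊓ centralizer (R1 : Set H) with hD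
  have hdec := Coprime.eq_commutator_sup_centralizer (hnV R1) (hcopR R1 hR1R V le_rfl)
  rw [← hD] at hdec
  have hbot : ⁅V, R1⁆ ⊓ centralizer (R1 : Set H) = ⊥ :=
    Coprime.commutator_inf_centralizer_eq_bot (hnV R1)
      ⟨⟨fun a b => Subtype.ext (hVc a a.2 b b.2)⟩⟩ (hcopR R1 hR1R V le_rfl)
  -- `B = C_V(R1)` fixed by `x` is in `K`
  set B := D ⊓ fixd x with hB
  have hBV : B ≤ V := inf_le_left.trans inf_le_left
  have hnB : R0 ≤ normalizer (B : Set H) := by
    intro t ht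
    refine mem_normalizer_fintype fun b hb => ?_
    obtain ⟨⟨hbV, hbC⟩, hbx⟩ := hb
    refine ⟨⟨hVn.conj_mem b hbV t, Subgroup.mem_centralizer_iff.mpr fun s hs => ?_⟩, ?_⟩
    · have hs' : t⁻¹ * s * t ∈ R1 := by
        have h1 := (mem_normalizer_iff.mp (le_normalizer_comS R (inv_mem ht.1)) s).mp hs
        rwa [inv_inv] at h1
      have h2 := Subgroup.mem_centralizer_iff.mp hbC _ hs'
      calc s * (t * b * t⁻¹) = t * ((t⁻¹ * s * t) * b) * t⁻¹ := by group
        _ = t * (b * (t⁻¹ * s * t)) * t⁻¹ := by rw [h2]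
        _ = t * b * t⁻¹ * s := by group
    · show x (t * b * t⁻¹) = t * b * t⁻¹
      rw [map_mul, map_mul, map_inv, show x t = t from ht.2, show x b = b from hbx]
  have hBK : B ≤ kk x := by
    have hd := Coprime.eq_commutator_sup_centralizer hnB (hcopR R0 inf_le_left B hBV)
    have hb0 : B ⊓ centralizer (R0 : Set H) = ⊥ := by
      rw [eq_bot_iff]
      rintro b ⟨hb, hbC⟩
      refine Subgroup.mem_bot.mpr (hfix b (hBV hb) fun t ht => ?_)
      obtain ⟨c, hc, hcx, s, hs, rfl⟩ := exists_fix_mul hy.pow_eq_one hy.cop hRi ht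
      have h1 := Subgroup.mem_centralizer_iff.mp hbC c ⟨hc, hcx⟩
      have h2 := Subgroup.mem_centralizer_iff.mp hb.1.2 s hs
      rw [mul_assoc, h2, ← mul_assoc, h1, mul_assoc]
    rw [hb0, sup_bot_eq] at hd
    rw [hd, Subgroup.commutator_le]
    intro a ha c hc
    exact hy.comm_mem_kk hVn hVi hV0 hVc (hBV ha) ha.2 hc.2
  refine hy.not_le_of_normal hVn hVi hV0 fun w hw => ?_
  obtain ⟨hwV, hwx⟩ := hw
  have hwx' : x w = w := hwx
  have hnD : D ≤ normalizer ((⁅V, R1⁆ : Subgroup H) : Set H) := fun d hd =>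
    mem_normalizer_fintype fun a ha => by
      show d * a * d⁻¹ ∈ ⁅V, R1⁆
      rw [hVc d hd.1 a (hVR1V ha), mul_inv_cancel_right]
      exact ha
  have hwS : w ∈ ((⁅V, R1⁆ ⊔ D : Subgroup H) : Set H) := hdec.le hwV
  rw [Subgroup.coe_mul_of_right_le_normalizer_left _ _ hnD] at hwS
  obtain ⟨a, ha, b, hb, rfl⟩ := hwS
  have hxa : x a ∈ ⁅V, R1⁆ := inv_commutator hVi hR1i a ha
  have hxb : x b ∈ D := inv_inf hVi (inv_centralizer hR1i) b hb
  have he : a⁻¹ * x a = b * (x b)⁻¹ := by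
    rw [map_mul] at hwx'
    calc a⁻¹ * x a = a⁻¹ * (x a * x b) * (x b)⁻¹ := by group
      _ = b * (x b)⁻¹ := by rw [hwx']; group
  have h1 : a⁻¹ * x a = 1 := by
    refine Subgroup.mem_bot.mp (hbot.le ⟨Subgroup.mul_mem _ (Subgroup.inv_mem _ ha) hxa, ?_⟩)
    rw [he]
    exact Subgroup.mul_mem _ hb.2 (Subgroup.inv_mem _ hxb.2)
  have hax : x a = a := (inv_mul_eq_one.mp h1).symm
  have hbx : x b = b := by
    rw [h1] at he
    exact (mul_inv_eq_one.mp he.symm).symm
  exact mul_mem (hy.sub S hSi hne ⟨hVR1X ha, hax⟩) (hBK ⟨hb, hbx⟩)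

/-- The configuration `H = V R` is impossible. -/
theorem false_of_top (hy : Hyp x p) {q r : ℕ} [Fact q.Prime] [Fact r.Prime] (hrq : r ≠ q)
    {V R C : Subgroup H} (hVn : V.Normal) (hVi : Inv x V) (hV0 : V ≠ ⊥)
    (hVc : ∀ a ∈ V, ∀ b ∈ V, a * b = b * a) (hVe : ∀ a ∈ V, a ^ q = 1) (hVq : IsPGroup q V)
    (hmin : ∀ T : Subgroup H, T.Normal → Inv x T → T ≤ V → T = ⊥ ∨ T = V)
    (hCn : C.Normal) (hCi : Inv x C) (hC : C = centralizer (V : Set H))
    (hab : ∀ a b : H, ⁅a, b⁆ ∈ C)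
    (hirr : ∀ T : Subgroup H, T.Normal → Inv x T → C < T → T = ⊤)
    (hRi : Inv x R) (hR0 : R ≠ ⊥) (hRr : IsPGroup r R)
    (hfix : ∀ v ∈ V, (∀ t ∈ R, t * v = v * t) → v = 1) (htop : V ⊔ R = ⊤) : False := by
  haveI := hy.sol
  haveI := hVn
  haveI := hCn
  have hcopVR : (Nat.card R).Coprime (Nat.card V) := IsPGroup.coprime_card_of_ne r q hrq R V hRr hVq
  have hdisj : V ⊓ R = ⊥ := Subgroup.inf_eq_bot_of_coprime hcopVR.symm
  have hVC : V ≤ C := hC ▸ fun v hv => Subgroup.mem_centralizer_iff.mpr fun a ha => hVc a ha v hv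
  have hdec : ∀ g : H, ∃ v ∈ V, ∃ t ∈ R, g = v * t := fun g => by
    obtain ⟨v, hv, t, ht, e⟩ := Subgroup.mem_sup_of_normal_left.mp (htop.ge (Subgroup.mem_top g))
    exact ⟨v, hv, t, ht, e.symm⟩
  -- `R` acts faithfully on `V`
  have hRC : R ⊓ C = ⊥ := by
    by_contra hne
    have hn : (R ⊓ C).Normal := ⟨fun n hn g => by
      obtain ⟨v, hv, t, ht, rfl⟩ := hdec g
      have hm : t * n * t⁻¹ ∈ R ⊓ C := ⟨R.mul_mem (R.mul_mem ht hn.1) (R.inv_mem ht), hCn.conj_mem n hn.2 t⟩
      have hm' : t * n * t⁻¹ ∈ centralizer (V : Set H) := hC ▸ hm.2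
      rw [show v * t * n * (v * t)⁻¹ = v * (t * n * t⁻¹) * v⁻¹ by group,
        Subgroup.mem_centralizer_iff.mp hm' v hv, mul_inv_cancel_right]
      exact hm⟩
    refine hy.not_le_of_normal hVn hVi hV0 fun w hw => ?_
    obtain ⟨k, hk, hkn⟩ := hy.quot _ hn (inv_inf hRi hCi) hne w hw.2
    obtain ⟨n, rfl⟩ : ∃ n, k = w * n := ⟨w⁻¹ * k, by group⟩
    have hn' : n ∈ R ⊓ C := by
      have := inv_mem hkn
      rwa [show ((w * n)⁻¹ * w)⁻¹ = w⁻¹ * (w * n) by group, inv_mul_cancel_left] at this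
    obtain ⟨m, hm⟩ := hRr ⟨n, hn'.1⟩
    have hm' : n ^ r ^ m = 1 := congrArg Subtype.val hm
    have hcomm : Commute w n :=
      Subgroup.mem_centralizer_iff.mp (hC ▸ hn'.2 : n ∈ centralizer (V : Set H)) w hw.1
    have hwk : w ^ r ^ m ∈ kk x := by
      have := pow_mem hk (r ^ m)
      rwa [hcomm.mul_pow, hm', mul_one] at this
    refine mem_of_pow_mem_coprime hwk (b := q) ((hVe w hw.1).symm ▸ one_mem _) ?_
    exact Nat.Coprime.pow_left m ((Nat.coprime_primes Fact.out Fact.out).mpr hrq)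
  have hRab : ∀ a ∈ R, ∀ b ∈ R, a * b = b * a := fun a ha b hb =>
    commutatorElement_eq_one_iff_mul_comm.mp (Subgroup.mem_bot.mp (hRC.le
      ⟨by rw [commutatorElement_def]; exact R.mul_mem (R.mul_mem (R.mul_mem ha hb) (R.inv_mem ha)) (R.inv_mem hb),
        hab a b⟩))
  set π := QuotientGroup.mk' V with hπ
  have hπV : ∀ v ∈ V, π v = 1 := fun v hv => (QuotientGroup.eq_one_iff v).mpr hv
  have hπR : ∀ a ∈ R, ∀ b ∈ R, π a = π b → a = b := fun a ha b hb e =>
    inv_mul_eq_one.mp (Subgroup.mem_bot.mp (hdisj.le ⟨QuotientGroup.eq.mp e, R.mul_mem (R.inv_mem ha) hb⟩))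
  have hπtop : R.map π = ⊤ := by
    refine eq_top_iff.mpr fun z _ => ?_
    obtain ⟨g, rfl⟩ := QuotientGroup.mk'_surjective V z
    obtain ⟨v, hv, t, ht, rfl⟩ := hdec g
    exact ⟨t, ht, by rw [map_mul, hπV v hv, one_mul]⟩
  -- no fixed points in `R`
  have hfpf : ∀ t ∈ R, x t = t → t = 1 := by
    intro t ht htx
    have e := comS_map π (quotAut_mk' V hVi) R
    rw [hπtop, comS_top_quot V hVi hy.com_top] at e
    obtain ⟨s, hs, hst⟩ : π t ∈ (comS x R).map π := e.ge (Subgroup.mem_top _)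
    have := hπR t ht s (comS_le hRi hs) hst.symm
    exact fix_eq_one_of_comm hy.pow_eq_one hy.cop hRi hRab (this ▸ hs) htx
  set W := V ⊓ fixd x with hW
  have hfixW : ∀ g : H, x g = g → g ∈ W := by
    intro g hg
    obtain ⟨v, hv, t, ht, rfl⟩ := hdec g
    have ht1 : x t = t := by
      refine hπR _ (hRi t ht) t ht ?_
      have h := congrArg π hg
      rw [map_mul x, map_mul π, map_mul π, hπV v hv, hπV (x v) (hVi v hv), one_mul, one_mul] at h
      exact h
    rw [hfpf t ht ht1, mul_one] at hg ⊢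
    exact ⟨hv, hg⟩
  -- the count
  have hbound : ∀ t ∈ R, t ≠ 1 → ∀ v ∈ V, ∃ w ∈ W, ∃ a ∈ W, v = t⁻¹ * (w * a) * t * a⁻¹ := by
    intro t ht ht1 v hv
    set L := gen x (t * v) with hL
    have hLi : Inv x L := gen_inv _
    have hgenR : gen x t ≤ R := (gen_le_comS ht).trans (comS_le hRi)
    have hgenC : gen x t ⊔ C = ⊤ := by
      refine hirr _ ⟨fun n hn g => ?_⟩ (inv_sup (gen_inv t) hCi) (lt_of_le_not_ge le_sup_right fun hle => ?_)
      · rw [show g * n * g⁻¹ = ⁅g, n⁆ * n by rw [commutatorElement_def]; group]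
        exact mul_mem (Subgroup.mem_sup_right (hab g n)) hn
      · refine ht1 (hfpf t ht ?_)
        have h1 : t⁻¹ * x t ∈ gen x t := Subgroup.subset_closure ⟨1, by rw [pow_one]⟩
        exact (inv_mul_eq_one.mp (Subgroup.mem_bot.mp
          (hRC.le ⟨hgenR h1, hle (Subgroup.mem_sup_left h1)⟩))).symm
    have hgenR' : R ≤ gen x t := fun a ha => by
      obtain ⟨b, hb, c, hc, e⟩ := Subgroup.mem_sup_of_normal_right.mp (hgenC.ge (Subgroup.mem_top a))
      have hc' : c ∈ R ⊓ C := ⟨by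
        have := mul_mem (inv_mem (hgenR hb)) ha
        rwa [← e, inv_mul_cancel_left] at this, hc⟩
      rw [hRC, Subgroup.mem_bot] at hc'
      rw [← e, hc', mul_one]
      exact hb
    have hLmap : L.map π = ⊤ := by
      rw [hL, gen_map π (quotAut_mk' V hVi), map_mul, hπV v hv, mul_one,
        ← gen_map π (quotAut_mk' V hVi), eq_top_iff, ← hπtop]
      exact Subgroup.map_mono hgenR'
    have hLdec : ∀ g : H, ∃ l ∈ L, l⁻¹ * g ∈ V := fun g => by
      obtain ⟨l, hl, e⟩ : π g ∈ L.map π := hLmap.ge (Subgroup.mem_top _)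
      exact ⟨l, hl, QuotientGroup.eq.mp e⟩
    have hLV : L ⊓ V = ⊥ := by
      refine (hmin _ ⟨fun n hn g => ?_⟩ (inv_inf hLi hVi) inf_le_right).resolve_right fun e => ?_
      · obtain ⟨l, hl, hlg⟩ := hLdec g
        obtain ⟨u, rfl⟩ : ∃ u, g = l * u := ⟨l⁻¹ * g, by group⟩
        rw [inv_mul_cancel_left] at hlg
        rw [show l * u * n * (l * u)⁻¹ = l * (u * n * u⁻¹) * l⁻¹ by group, hVc u hlg n hn.2,
          mul_inv_cancel_right]
        exact ⟨L.mul_mem (L.mul_mem hl hn.1) (L.inv_mem hl), hVn.conj_mem n hn.2 l⟩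
      · exact hy.not_le_of_normal hVn hVi hV0 fun w hw =>
          mem_kk (inf_le_left (a := L) (b := V) (e.ge hw.1)) hw.2
    -- both are Sylow subgroups
    have hLr : IsPGroup r L := by
      intro l
      obtain ⟨a, ha, e⟩ : π (l : H) ∈ R.map π := hπtop.ge (Subgroup.mem_top _)
      obtain ⟨m, hm⟩ := hRr ⟨a, ha⟩
      refine ⟨m, Subtype.ext (Subgroup.mem_bot.mp (hLV.le ⟨pow_mem l.2 _, ?_⟩))⟩
      refine (QuotientGroup.eq_one_iff _).mp ?_
      show π ((l : H) ^ r ^ m) = 1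
      rw [map_pow, ← e, ← map_pow, show a ^ r ^ m = 1 from congrArg Subtype.val hm, map_one]
    have hcR : R.IsComplement' V := Subgroup.isComplement'_of_disjoint_and_mul_eq_univ
      (disjoint_iff.mpr (by rw [inf_comm]; exact hdisj))
      (by rw [← Subgroup.coe_mul_of_left_le_normalizer_right _ _
        (by rw [Subgroup.normalizer_eq_top V]; exact le_top), sup_comm, htop, Subgroup.coe_top])
    have hcL : L.IsComplement' V := Subgroup.isComplement'_of_disjoint_and_mul_eq_univ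
      (disjoint_iff.mpr hLV) (Set.eq_univ_of_forall fun g => by
        obtain ⟨l, hl, hlg⟩ := hLdec g
        exact ⟨l, hl, l⁻¹ * g, hlg, mul_inv_cancel_left l g⟩)
    have hnd : ∀ Z : Subgroup H, Z.IsComplement' V → ¬ r ∣ Z.index := fun Z hZ h => by
      rw [hZ.symm.index_eq_card] at h
      obtain ⟨n, hn⟩ := IsPGroup.iff_card.mp hVq
      rw [hn] at h
      exact hrq ((Nat.prime_dvd_prime_iff_eq Fact.out Fact.out).mp ((Fact.out : r.Prime).dvd_of_dvd_pow h))
    obtain ⟨g, hg⟩ := MulAction.exists_smul_eq H (hRr.toSylow (hnd R hcR)) (hLr.toSylow (hnd L hcL))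
    obtain ⟨a, ha, s, hs, rfl⟩ := hdec g
    have hLa : ∀ z : H, z ∈ L ↔ a⁻¹ * z * a ∈ R := by
      intro z
      have e : R.map (MulAut.conj (a * s)).toMonoidHom = L := congrArg Sylow.toSubgroup hg
      rw [← e, Subgroup.mem_map_equiv, MulAut.conj_symm_apply]
      constructor
      · intro h
        have := mul_mem (mul_mem hs h) (inv_mem hs)
        rwa [show s * ((a * s)⁻¹ * z * (a * s)) * s⁻¹ = a⁻¹ * z * a by group] at this
      · intro h
        rw [show (a * s)⁻¹ * z * (a * s) = s⁻¹ * (a⁻¹ * z * a) * s by group]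
        exact mul_mem (mul_mem (inv_mem hs) h) hs
    have hax : x a = a := by
      obtain ⟨d, hd, hxa⟩ : ∃ d ∈ V, x a = a * d :=
        ⟨a⁻¹ * x a, mul_mem (inv_mem ha) (hVi a ha), by group⟩
      suffices d = 1 by rw [hxa, this, mul_one]
      refine hfix d hd fun b hb => ?_
      obtain ⟨b', hb', rfl⟩ : ∃ b' ∈ R, x b' = b :=
        ⟨((res x hRi).symm ⟨b, hb⟩ : R), ((res x hRi).symm ⟨b, hb⟩).2,
          congrArg Subtype.val ((res x hRi).apply_symm_apply ⟨b, hb⟩)⟩
      have h2 := (hLa _).mp (hLi _ ((hLa (a * b' * a⁻¹)).mpr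
        (by rw [show a⁻¹ * (a * b' * a⁻¹) * a = b' by group]; exact hb')))
      rw [map_mul, map_mul, map_inv, hxa,
        show a⁻¹ * (a * d * x b' * (a * d)⁻¹) * a = d * x b' * d⁻¹ by group] at h2
      have e := hπR _ h2 _ (hRi b' hb') (by rw [map_mul, map_mul, map_inv, hπV d hd, one_mul, inv_one, mul_one])
      exact (mul_inv_eq_iff_eq_mul.mp e).symm
    obtain ⟨l, hl, hfl⟩ := lift_fixed hy.pow_eq_one hy.cop hLi (g := t * v)
      (Subgroup.subset_closure ⟨1, by rw [pow_one]⟩)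
    have hw := hfixW _ hfl
    obtain ⟨b, hb, hlb⟩ : ∃ b ∈ R, l⁻¹ = a * b * a⁻¹ :=
      ⟨a⁻¹ * l⁻¹ * a, (hLa _).mp (inv_mem hl), by group⟩
    refine ⟨t * v * l, hw, a, ⟨ha, hax⟩, ?_⟩
    have hbt : b = t := by
      refine hπR b hb t ht ?_
      have h1 : π (t * v * l) = 1 := hπV _ hw.1
      rw [map_mul, map_mul, hπV v hv, mul_one, show l = (a * b * a⁻¹)⁻¹ by rw [← hlb, inv_inv],
        map_inv, map_mul, map_mul, map_inv, hπV a ha, one_mul, inv_one, mul_one, mul_inv_eq_one] at h1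
      exact h1.symm
    rw [hbt] at hlb
    calc v = t⁻¹ * (t * v * l * l⁻¹) := by group
      _ = t⁻¹ * (t * v * l * (a * t * a⁻¹)) := by rw [hlb]
      _ = t⁻¹ * (t * v * l * a) * t * a⁻¹ := by group
  have hcard := card_eq_fixd_pow hy.ord hy.cop (q := q) hVi hRi hVc hVe hRab
    (by rw [Subgroup.normalizer_eq_top V]; exact le_top)
    (by
      obtain ⟨n, hn⟩ := IsPGroup.iff_card.mp hRr
      rw [hn]
      exact Nat.Coprime.pow_left n ((Nat.coprime_primes Fact.out Fact.out).mpr hrq))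
    (fun v hv h => hfix v hv fun t ht => mul_inv_eq_iff_eq_mul.mp (h t ht)) hfpf
  obtain ⟨t, ht, ht1⟩ := (Subgroup.bot_or_exists_ne_one R).resolve_left hR0
  choose f hf g hg hfg using hbound t ht ht1
  have hle : Nat.card V ≤ Nat.card W ^ 2 := by
    rw [pow_two, ← Nat.card_prod]
    refine Nat.card_le_card_of_injective
      (fun v : V => ((⟨f v v.2, hf v v.2⟩ : W), (⟨g v v.2, hg v v.2⟩ : W))) fun v v' e => Subtype.ext ?_
    rw [hfg v v.2, hfg v' v'.2]
    have e1 : f v v.2 = f v' v'.2 := congrArg (fun z : W × W => (z.1 : H)) e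
    have e2 : g v v.2 = g v' v'.2 := congrArg (fun z : W × W => (z.2 : H)) e
    rw [e1, e2]
  have hW1 : 1 < Nat.card W := by
    refine (Subgroup.one_lt_card_iff_ne_bot W).mpr fun e => hy.not_le_of_normal hVn hVi hV0 ?_
    rw [← hW, e]
    exact bot_le
  rw [hcard, ← hW] at hle
  have hp := (Fact.out : p.Prime).two_le
  have := (Nat.pow_le_pow_iff_right hW1).mp hle
  exact hy.odd (by omega)

/-- The minimal invariant normal subgroup is central. -/
theorem le_center (hy : Hyp x p) {q : ℕ} [Fact q.Prime] {V : Subgroup H} (hVn : V.Normal)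
    (hVi : Inv x V) (hV0 : V ≠ ⊥) (hVc : ∀ a ∈ V, ∀ b ∈ V, a * b = b * a) (hVe : ∀ a ∈ V, a ^ q = 1)
    (hmin : ∀ T : Subgroup H, T.Normal → Inv x T → T ≤ V → T = ⊥ ∨ T = V) :
    V ≤ Subgroup.center H := by
  haveI := hy.sol
  haveI := hVn
  by_contra hVZ
  set C := centralizer (V : Set H) with hC
  have hCn : C.Normal := ⟨fun c hc g => Subgroup.mem_centralizer_iff.mpr fun v hv => by
    have hv' : g⁻¹ * v * g ∈ V := by
      have := hVn.conj_mem v hv g⁻¹
      rwa [inv_inv] at this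
    have h := Subgroup.mem_centralizer_iff.mp hc _ hv'
    calc v * (g * c * g⁻¹) = g * ((g⁻¹ * v * g) * c) * g⁻¹ := by group
      _ = g * (c * (g⁻¹ * v * g)) * g⁻¹ := by rw [h]
      _ = g * c * g⁻¹ * v := by group⟩
  haveI := hCn
  have hCi : Inv x C := inv_centralizer hVi
  haveI : Nontrivial (H ⧸ C) := by
    by_contra h
    rw [not_nontrivial_iff_subsingleton] at h
    refine hVZ fun v hv => Subgroup.mem_center_iff.mpr fun g => ?_
    exact (Subgroup.mem_centralizer_iff.mp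
      ((QuotientGroup.eq_one_iff g).mp (Subsingleton.elim _ _) : g ∈ C) v hv).symm
  obtain ⟨T, r, hr, hTn, hTi, hT0, hTc, hTe, hTmin⟩ := exists_minimal (quotAut x C hCi)
  haveI := Fact.mk hr
  haveI := hTn
  set π := QuotientGroup.mk' C with hπ
  set U := T.comap π with hU
  have hUi : Inv x U := fun u hu => by
    show π (x u) ∈ T
    rw [quotAut_mk']
    exact hTi _ hu
  have hTr : IsPGroup r T := fun a => ⟨1, Subtype.ext (by
    rw [pow_one, SubmonoidClass.coe_pow]; exact hTe a a.2)⟩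
  obtain ⟨P, hP⟩ := exists_inv_sylow hy.pow_eq_one hy.cop hUi r
  set R := (P : Subgroup U).map U.subtype with hR
  have hRr : IsPGroup r R := P.2.map _
  have hRT : ∀ z ∈ T, ∃ t ∈ R, π t = z := by
    intro z hz
    let f : U →* T := (π.comp U.subtype).codRestrict T fun u => u.2
    have hf : Function.Surjective f := fun y => by
      obtain ⟨g, hg⟩ := QuotientGroup.mk'_surjective C (y : H ⧸ C)
      exact ⟨⟨g, show π g ∈ T by rw [hπ, hg]; exact y.2⟩, Subtype.ext hg⟩
    have htop : ((P.mapSurjective hf : Sylow r T) : Subgroup T) = ⊤ :=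
      ((P.mapSurjective hf).3 (hTr.to_subgroup ⊤) le_top).symm
    obtain ⟨u, hu, e⟩ : (⟨z, hz⟩ : T) ∈ (P : Subgroup U).map f := by
      rw [← Sylow.coe_mapSurjective hf P, htop]; exact Subgroup.mem_top _
    exact ⟨u, ⟨u, hu, rfl⟩, congrArg Subtype.val e⟩
  have hfix : ∀ v ∈ V, (∀ t ∈ R, t * v = v * t) → v = 1 := by
    intro v hv h
    have hvU : v ∈ V ⊓ centralizer (U : Set H) := by
      refine ⟨hv, Subgroup.mem_centralizer_iff.mpr fun u hu => ?_⟩
      obtain ⟨t, ht, e⟩ := hRT (π u) hu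
      have h1 := Subgroup.mem_centralizer_iff.mp (QuotientGroup.eq.mp e : t⁻¹ * u ∈ C) v hv
      calc u * v = t * (t⁻¹ * u * v) := by group
        _ = t * (v * (t⁻¹ * u)) := by rw [h1]
        _ = t * v * (t⁻¹ * u) := by group
        _ = v * t * (t⁻¹ * u) := by rw [h t ht]
        _ = v * u := by group
    rcases hmin (V ⊓ centralizer (U : Set H))
      ⟨fun n hn g => ⟨hVn.conj_mem n hn.1 g, Subgroup.mem_centralizer_iff.mpr fun u hu => by
        have hu' : g⁻¹ * u * g ∈ U := by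
          have := (inferInstance : U.Normal).conj_mem u hu g⁻¹
          rwa [inv_inv] at this
        have h := Subgroup.mem_centralizer_iff.mp hn.2 _ hu'
        calc u * (g * n * g⁻¹) = g * ((g⁻¹ * u * g) * n) * g⁻¹ := by group
          _ = g * (n * (g⁻¹ * u * g)) * g⁻¹ := by rw [h]
          _ = g * n * g⁻¹ * u := by group⟩⟩
      (inv_inf hVi (inv_centralizer hUi)) inf_le_left with e | e
    · exact Subgroup.mem_bot.mp (e.le hvU)
    · exfalso
      refine hT0 (eq_bot_iff.mpr fun z hz => ?_)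
      obtain ⟨u, rfl⟩ := QuotientGroup.mk'_surjective C z
      refine Subgroup.mem_bot.mpr ((QuotientGroup.eq_one_iff u).mpr (Subgroup.mem_centralizer_iff.mpr fun a ha => ?_))
      exact (Subgroup.mem_centralizer_iff.mp (e.ge ha).2 u hz).symm
  have hVq : IsPGroup q V := fun a => ⟨1, Subtype.ext (by
    rw [pow_one, SubmonoidClass.coe_pow]; exact hVe a a.2)⟩
  have hrq : r ≠ q := by
    intro e
    subst e
    haveI := (hVq.to_sup_of_normal_left hRr).isNilpotent
    obtain ⟨z, ⟨hzV, hzc⟩, hz1⟩ :=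
      (Subgroup.bot_or_exists_ne_one (V.subgroupOf (V ⊔ R) ⊓ center (V ⊔ R : Subgroup H))).resolve_left
        (S0065.result _ fun h => hV0 (by
          rw [Subgroup.subgroupOf_eq_bot, disjoint_iff, inf_eq_left.mpr le_sup_left] at h
          exact h))
    exact hz1 (Subtype.ext (hfix z hzV fun t ht =>
      congrArg Subtype.val (Subgroup.mem_center_iff.mp hzc ⟨t, Subgroup.mem_sup_right ht⟩)))
  have hR0 : R ≠ ⊥ := fun e => hV0 (eq_bot_iff.mpr fun v hv =>
    Subgroup.mem_bot.mpr (hfix v hv fun t ht => by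
      rw [Subgroup.mem_bot.mp (e.le ht), one_mul, mul_one]))
  by_cases htop : V ⊔ R = ⊤
  · have hUtop : T = ⊤ := by
      refine eq_top_iff.mpr fun z _ => ?_
      obtain ⟨g, rfl⟩ := QuotientGroup.mk'_surjective C z
      obtain ⟨v, hv, t, ht, rfl⟩ := Subgroup.mem_sup_of_normal_left.mp (htop.ge (Subgroup.mem_top g))
      obtain ⟨u, -, rfl⟩ := ht
      rw [map_mul, show π v = 1 from (QuotientGroup.eq_one_iff v).mpr
        (Subgroup.mem_centralizer_iff.mpr fun a ha => hVc a ha v hv : v ∈ C), one_mul]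
      exact u.2
    refine hy.false_of_top hrq hVn hVi hV0 hVc hVe hVq hmin hCn hCi rfl (fun a b => ?_) (fun S hSn hSi hlt => ?_)
      hP hR0 hRr hfix htop
    · rw [← QuotientGroup.eq_one_iff, ← QuotientGroup.mk'_apply, map_commutatorElement,
        commutatorElement_eq_one_iff_mul_comm]
      exact hTc _ (hUtop.ge (Subgroup.mem_top _)) _ (hUtop.ge (Subgroup.mem_top _))
    · have h := (hTmin (S.map π) (hSn.map π (QuotientGroup.mk'_surjective C)) (fun z hz => by
        obtain ⟨s, hs, rfl⟩ := hz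
        exact ⟨x s, hSi s hs, quotAut_mk' C hCi s⟩) (hUtop ▸ le_top)).resolve_left fun h => by
          rw [Subgroup.map_eq_bot_iff, hπ, QuotientGroup.ker_mk'] at h
          exact hlt.not_ge h
      refine eq_top_iff.mpr fun g _ => ?_
      obtain ⟨s, hs, e⟩ : π g ∈ S.map π := (h.trans hUtop).ge (Subgroup.mem_top _)
      have := mul_mem hs (hlt.le (QuotientGroup.eq.mp e))
      rwa [mul_inv_cancel_left] at this
  · exact hy.false_of_proper hrq hVn hVi hV0 hVc hVq hP hRr hfix htop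

end Cfsg.Agent.Transfer.Flavell.Hyp
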