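import Cfsg.Agent.Transfer.Flavell.CentralCase
import Cfsg.Agent.Transfer.Flavell.Faithful

/-! Flavell's lemma on the fixed points of `[H, P]`. -/

set_option autoImplicit false
set_option linter.unusedSectionVars false
set_option linter.style.haveILetI false

namespace Cfsg.Agent.Transfer.Flavell

open Subgroup
open scoped commutatorElement

universe u

/-- The fixed points of `[H, P]` are generated by those of the `[h, P]`. -/
theorem comS_inf_fixd_le_kk {p : ℕ} [Fact p.Prime] (hp : p ≠ 2) (n : ℕ) : ∀ {H : Type u} [Group H] [Finite H],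
    Nat.card H = n → Group.IsSolvable H → (Nat.card H).Coprime p → ∀ x : MulAut H, x ^ p = 1 →
    comS x ⊤ ⊓ fixd x ≤ kk x := by
  induction n using Nat.strong_induction_on with
  | _ n ih =>
  intro H _ _ hn hsol hcop x hx
  haveI := hsol
  have hsub : ∀ S : Subgroup H, Inv x S → S ≠ ⊤ → comS x S ⊓ fixd x ≤ kk x := by
    intro S hS hne w hw
    have hf : ∀ s : S, S.subtype (res x hS s) = x (S.subtype s) := fun s => rfl
    have htop : (comS (res x hS) ⊤).map S.subtype = comS x S := by
      rw [comS_map S.subtype hf, ← MonoidHom.range_eq_map, Subgroup.range_subtype]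
    obtain ⟨s, hs, rfl⟩ : w ∈ (comS (res x hS) ⊤).map S.subtype := htop.ge hw.1
    have hlt : Nat.card S < n := hn ▸ lt_of_le_of_ne (Subgroup.card_le_card_group S)
      (fun e => hne (Subgroup.eq_top_of_card_eq S e))
    have h1 := ih _ hlt rfl inferInstance (hcop.coprime_dvd_left (Subgroup.card_subgroup_dvd_card S))
      (res x hS) (res_pow_card hx hS) ⟨hs, Subtype.ext hw.2⟩
    have h2 : kk (res x hS) ≤ (kk x).comap S.subtype := by
      refine iSup_le fun h g hg => mem_kk (h := S.subtype h) ?_ (congrArg Subtype.val hg.2)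
      rw [← gen_map S.subtype hf]
      exact ⟨g, hg.1, rfl⟩
    exact h2 h1
  by_cases htop : comS x ⊤ = ⊤
  swap
  · intro w hw
    exact hsub _ (comS_inv inv_top) htop ⟨(comS_comS hx hcop inv_top).ge hw.1, hw.2⟩
  by_cases hx1 : x = 1
  · intro w hw
    have : comS x ⊤ = ⊥ := by
      rw [eq_bot_iff]
      refine (Subgroup.closure_le _).mpr ?_
      rintro c ⟨g, -, i, rfl⟩
      simp [hx1]
    rw [show w = 1 from Subgroup.mem_bot.mp (this.le hw.1)]
    exact one_mem _
  by_contra hfail
  have hy : Hyp x p := by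
    refine ⟨hsol, hp, orderOf_eq_prime hx hx1, hcop, htop, hsub, fun N hNn hNi hN0 w hw => ?_, fun h =>
      hfail fun w hw => h hw.2⟩
    haveI := hNn
    set π := QuotientGroup.mk' N with hπ
    have hlt : Nat.card (H ⧸ N) < n := by
      rw [← hn, Subgroup.card_eq_card_quotient_mul_card_subgroup N]
      exact lt_mul_of_one_lt_right Nat.card_pos ((Subgroup.one_lt_card_iff_ne_bot N).mpr hN0)
    have h1 : π w ∈ kk (quotAut x N hNi) :=
      ih _ hlt rfl inferInstance (quot_cop N hcop) _ (quotAut_pow N hNi hx)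
        ⟨(comS_top_quot N hNi htop).ge (Subgroup.mem_top _), by
          show quotAut x N hNi (π w) = π w
          rw [hπ, ← quotAut_mk', show x w = w from hw]⟩
    have h2 : kk (quotAut x N hNi) ≤ (kk x).map π := by
      refine iSup_le fun z c hc => ?_
      obtain ⟨h, rfl⟩ := QuotientGroup.mk'_surjective N z
      obtain ⟨hc1, hc2⟩ := hc
      rw [← gen_map π (quotAut_mk' N hNi) h] at hc1
      obtain ⟨g, hg, rfl⟩ := hc1
      have hgN : g⁻¹ * x g ∈ N := by
        refine QuotientGroup.eq.mp (?_ : π g = π (x g))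
        rw [hπ, quotAut_mk']
        exact hc2.symm
      obtain ⟨s, hs, hfs⟩ := lift_fixed hx hcop (S := gen x h ⊓ N) (inv_inf (gen_inv h) hNi) (g := g)
        ⟨(gen x h).mul_mem ((gen x h).inv_mem hg) (gen_inv h g hg), hgN⟩
      refine ⟨g * s, mem_kk ((gen x h).mul_mem hg hs.1) hfs, ?_⟩
      rw [map_mul, (QuotientGroup.eq_one_iff s).mpr hs.2 |> fun e : π s = 1 => e, mul_one]
    obtain ⟨k, hk, e⟩ := h2 h1
    exact ⟨k, hk, QuotientGroup.eq.mp e⟩
  haveI : Nontrivial H := by
    by_contra h
    rw [not_nontrivial_iff_subsingleton] at h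
    exact hy.fail fun w _ => by rw [Subsingleton.elim w 1]; exact one_mem _
  obtain ⟨V, q, hq, hVn, hVi, hV0, hVc, hVe, hmin⟩ := exists_minimal x
  haveI := Fact.mk hq
  exact hy.false_of_central hVn hVi hV0 hVe (hy.le_center hVn hVi hV0 hVc hVe hmin)

end Cfsg.Agent.Transfer.Flavell
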