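import Cfsg.Prelude
import Cfsg.Agent.Chars.CoprimeFixed

/-! Fixed points in the subgroups `[h, P]`: basic facts. -/

set_option autoImplicit false
set_option linter.unusedSectionVars false
set_option linter.style.haveILetI false

namespace Cfsg.Agent.Transfer.Flavell

open Subgroup
open scoped commutatorElement

universe u

variable {H : Type u} [Group H]

/-- `S` is invariant under `x`. -/
def Inv (x : MulAut H) (S : Subgroup H) : Prop := ∀ s ∈ S, x s ∈ S

/-- `[h, P]`. -/
def gen (x : MulAut H) (h : H) : Subgroup H :=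
  Subgroup.closure {c : H | ∃ i : ℕ, c = h⁻¹ * (x ^ i) h}

/-- `[S, P]`. -/
def comS (x : MulAut H) (S : Subgroup H) : Subgroup H :=
  Subgroup.closure {c : H | ∃ s ∈ S, ∃ i : ℕ, c = s⁻¹ * (x ^ i) s}

/-- The fixed points. -/
abbrev fixd (x : MulAut H) : Subgroup H := (x : H →* H).eqLocus (MonoidHom.id H)

/-- The subgroup generated by the fixed points in the `[h, P]`. -/
def kk (x : MulAut H) : Subgroup H := ⨆ h : H, gen x h ⊓ fixd x

variable {x : MulAut H}

theorem mem_fixd {w : H} : w ∈ fixd x ↔ x w = w := Iff.rfl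

theorem pow_apply_succ (i : ℕ) (g : H) : (x ^ (i + 1)) g = x ((x ^ i) g) := by
  rw [pow_succ', MulAut.mul_apply]

theorem pow_apply_add (i j : ℕ) (g : H) : (x ^ (i + j)) g = (x ^ i) ((x ^ j) g) := by
  rw [pow_add, MulAut.mul_apply]

theorem pow_fix {w : H} (hw : x w = w) (i : ℕ) : (x ^ i) w = w := by
  induction i with
  | zero => rfl
  | succ i ih => rw [pow_apply_succ, ih, hw]

theorem inv_pow {S : Subgroup H} (hS : Inv x S) (i : ℕ) : ∀ s ∈ S, (x ^ i) s ∈ S := by
  induction i with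
  | zero => exact fun s hs => hs
  | succ i ih => exact fun s hs => by rw [pow_apply_succ]; exact hS _ (ih s hs)

theorem inv_zpowers [Finite H] {S : Subgroup H} (hS : Inv x S) {a : MulAut H}
    (ha : a ∈ Subgroup.zpowers x) : ∀ s ∈ S, a s ∈ S := by
  haveI : Finite (MulAut H) := Finite.of_injective (fun e => (e : H → H)) DFunLike.coe_injective
  obtain ⟨i, rfl⟩ := mem_powers_iff_mem_zpowers.mpr ha
  exact inv_pow hS i

theorem gen_le_comS {S : Subgroup H} {h : H} (hh : h ∈ S) : gen x h ≤ comS x S := by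
  refine Subgroup.closure_mono ?_
  rintro c ⟨i, rfl⟩
  exact ⟨h, hh, i, rfl⟩

theorem comS_mono {S T : Subgroup H} (h : S ≤ T) : comS x S ≤ comS x T :=
  Subgroup.closure_mono fun _ ⟨s, hs, i, e⟩ => ⟨s, h hs, i, e⟩

theorem comS_le {S : Subgroup H} (hS : Inv x S) : comS x S ≤ S := by
  refine (Subgroup.closure_le _).mpr ?_
  rintro c ⟨s, hs, i, rfl⟩
  exact mul_mem (inv_mem hs) (inv_pow hS i s hs)

theorem gen_mem {S : Subgroup H} {h : H} (hh : h ∈ S) (i : ℕ) : h⁻¹ * (x ^ i) h ∈ comS x S :=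
  Subgroup.subset_closure ⟨h, hh, i, rfl⟩

theorem gen_mem_one {S : Subgroup H} {h : H} (hh : h ∈ S) : h⁻¹ * x h ∈ comS x S := by
  simpa using gen_mem (x := x) hh 1

theorem gen_inv (h : H) : Inv x (gen x h) := by
  intro c hc
  induction hc using Subgroup.closure_induction with
  | mem c hc =>
    obtain ⟨i, rfl⟩ := hc
    rw [show x (h⁻¹ * (x ^ i) h) = (h⁻¹ * (x ^ 1) h)⁻¹ * (h⁻¹ * (x ^ (i + 1)) h) by
      rw [pow_one, map_mul, map_inv, ← pow_apply_succ]; group]
    exact mul_mem (inv_mem (Subgroup.subset_closure ⟨1, rfl⟩)) (Subgroup.subset_closure ⟨i + 1, rfl⟩)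
  | one => rw [map_one]; exact one_mem _
  | mul a b _ _ ha hb => rw [map_mul]; exact mul_mem ha hb
  | inv a _ ha => rw [map_inv]; exact inv_mem ha

theorem comS_inv {S : Subgroup H} (hS : Inv x S) : Inv x (comS x S) := by
  intro c hc
  induction hc using Subgroup.closure_induction with
  | mem c hc =>
    obtain ⟨s, hs, i, rfl⟩ := hc
    rw [show x (s⁻¹ * (x ^ i) s) = (x s)⁻¹ * (x ^ i) (x s) by
      rw [map_mul, map_inv, ← pow_apply_succ, pow_succ, MulAut.mul_apply]]
    exact gen_mem (hS s hs) i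
  | one => rw [map_one]; exact one_mem _
  | mul a b _ _ ha hb => rw [map_mul]; exact mul_mem ha hb
  | inv a _ ha => rw [map_inv]; exact inv_mem ha

theorem le_normalizer_comS [Finite H] (S : Subgroup H) :
    S ≤ normalizer (comS x S : Set H) := by
  intro t ht
  refine mem_normalizer_fintype fun c hc => ?_
  have h : comS x S ≤ (comS x S).comap (MulAut.conj t).toMonoidHom := by
    refine (Subgroup.closure_le _).mpr ?_
    rintro c ⟨s, hs, i, rfl⟩
    show t * (s⁻¹ * (x ^ i) s) * t⁻¹ ∈ comS x S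
    rw [show t * (s⁻¹ * (x ^ i) s) * t⁻¹ =
      ((s * t⁻¹)⁻¹ * (x ^ i) (s * t⁻¹)) * (t⁻¹⁻¹ * (x ^ i) t⁻¹)⁻¹ by rw [map_mul]; group]
    exact mul_mem (gen_mem (mul_mem hs (inv_mem ht)) i) (inv_mem (gen_mem (inv_mem ht) i))
  exact h hc

theorem fixd_normalizes_gen {c : H} (hc : x c = c) (h : H) :
    (gen x h).map (MulAut.conj c).toMonoidHom ≤ gen x (h * c⁻¹) := by
  rw [gen, MonoidHom.map_closure, Subgroup.closure_le]
  rintro _ ⟨_, ⟨i, rfl⟩, rfl⟩
  refine Subgroup.subset_closure ⟨i, ?_⟩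
  rw [MulEquiv.coe_toMonoidHom, MulAut.conj_apply, map_mul (x ^ i), map_inv (x ^ i), pow_fix hc]
  group

theorem kk_le_fixd : kk x ≤ fixd x := iSup_le fun _ => inf_le_right

theorem mem_kk {h w : H} (hw : w ∈ gen x h) (hx : x w = w) : w ∈ kk x :=
  le_iSup (fun h => gen x h ⊓ fixd x) h ⟨hw, hx⟩

theorem fixd_le_normalizer_kk [Finite H] : fixd x ≤ normalizer (kk x : Set H) := by
  intro c hc
  refine mem_normalizer_fintype fun k hk => ?_
  have h : kk x ≤ (kk x).comap (MulAut.conj c).toMonoidHom := by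
    refine iSup_le fun h g hg => ?_
    refine mem_kk (h := h * c⁻¹) (fixd_normalizes_gen hc h ⟨g, hg.1, rfl⟩) ?_
    show x (c * g * c⁻¹) = c * g * c⁻¹
    rw [map_mul, map_mul, map_inv, show x c = c from hc, show x g = g from hg.2]
  exact h hk

/-! ### Restriction and images -/

/-- The automorphism induced on an invariant subgroup. -/
noncomputable def res [Finite H] (x : MulAut H) {S : Subgroup H} (hS : Inv x S) : MulAut S :=
  MulEquiv.ofBijective ((x.toMonoidHom.comp S.subtype).codRestrict S fun s => hS s s.2)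
    (Finite.injective_iff_bijective.mp fun _ _ h => Subtype.ext (x.injective (congrArg Subtype.val h)))

@[simp] theorem res_coe [Finite H] {S : Subgroup H} (hS : Inv x S) (s : S) :
    ((res x hS s : S) : H) = x s := rfl

theorem res_pow [Finite H] {S : Subgroup H} (hS : Inv x S) (i : ℕ) (s : S) :
    (((res x hS ^ i) s : S) : H) = (x ^ i) s := by
  induction i with
  | zero => rfl
  | succ i ih => rw [pow_apply_succ, res_coe, ih, ← pow_apply_succ]

theorem res_pow_card [Finite H] {p : ℕ} (hx : x ^ p = 1) {S : Subgroup H} (hS : Inv x S) :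
    res x hS ^ p = 1 :=
  MulEquiv.ext fun s => Subtype.ext (by rw [res_pow, hx]; rfl)

theorem pow_eqv {G : Type*} [Group G] {y : MulAut G} (f : H →* G) (hf : ∀ h, f (x h) = y (f h))
    (i : ℕ) (h : H) : f ((x ^ i) h) = (y ^ i) (f h) := by
  induction i with
  | zero => rfl
  | succ i ih => rw [pow_apply_succ, pow_apply_succ, hf, ih]

theorem gen_map {G : Type*} [Group G] {y : MulAut G} (f : H →* G) (hf : ∀ h, f (x h) = y (f h))
    (h : H) : (gen x h).map f = gen y (f h) := by
  rw [gen, gen, MonoidHom.map_closure]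
  congr 1
  ext c
  constructor
  · rintro ⟨_, ⟨i, rfl⟩, rfl⟩
    exact ⟨i, by rw [map_mul, map_inv, pow_eqv f hf]⟩
  · rintro ⟨i, rfl⟩
    exact ⟨_, ⟨i, rfl⟩, by rw [map_mul, map_inv, pow_eqv f hf]⟩

theorem comS_map {G : Type*} [Group G] {y : MulAut G} (f : H →* G) (hf : ∀ h, f (x h) = y (f h))
    (S : Subgroup H) : (comS x S).map f = comS y (S.map f) := by
  rw [comS, comS, MonoidHom.map_closure]
  congr 1
  ext c
  constructor
  · rintro ⟨_, ⟨s, hs, i, rfl⟩, rfl⟩
    exact ⟨f s, ⟨s, hs, rfl⟩, i, by rw [map_mul, map_inv, pow_eqv f hf]⟩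
  · rintro ⟨_, ⟨s, hs, rfl⟩, i, rfl⟩
    exact ⟨_, ⟨s, hs, i, rfl⟩, by rw [map_mul, map_inv, pow_eqv f hf]⟩

/-! ### Coprime action -/

variable [Finite H] {p : ℕ} [Fact p.Prime]

/-- An invariant coset of an invariant subgroup contains a fixed point. -/
theorem lift_fixed [Group.IsSolvable H] (hx : x ^ p = 1) (hcop : (Nat.card H).Coprime p)
    {S : Subgroup H} (hS : Inv x S) {g : H} (hg : g⁻¹ * x g ∈ S) :
    ∃ s ∈ S, x (g * s) = g * s := by
  haveI := Fintype.ofFinite H
  haveI : Finite (MulAut H) := Finite.of_injective (fun e => (e : H → H)) DFunLike.coe_injective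
  have hgi : ∀ i : ℕ, g⁻¹ * (x ^ i) g ∈ S := by
    intro i
    induction i with
    | zero => simp
    | succ i ih =>
      rw [show g⁻¹ * (x ^ (i + 1)) g = (g⁻¹ * x g) * x (g⁻¹ * (x ^ i) g) by
        rw [pow_apply_succ, map_mul, map_inv]; group]
      exact mul_mem hg (hS _ ih)
  have hc : (Nat.card S).Coprime (Nat.card (Subgroup.zpowers x)) :=
    ((hcop.coprime_dvd_left (Subgroup.card_subgroup_dvd_card S)).coprime_dvd_right
      (by rw [Nat.card_zpowers]; exact orderOf_dvd_of_pow_eq_one hx))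
  obtain ⟨s, hs, hfix⟩ := Chars.CoprimeFixed.exists_fixed_in_coset (Subgroup.zpowers x).subtype S
    (fun a t ht => inv_zpowers hS a.2 t ht) inferInstance hc (g := g) (fun a => by
      obtain ⟨i, hi⟩ := mem_powers_iff_mem_zpowers.mpr a.2
      show g⁻¹ * (a : MulAut H) g ∈ S
      rw [← hi]; exact hgi i)
  exact ⟨s, hs, hfix ⟨x, Subgroup.mem_zpowers x⟩⟩

/-- `S = C_S(P) [S, P]`. -/
theorem exists_fix_mul [Group.IsSolvable H] (hx : x ^ p = 1) (hcop : (Nat.card H).Coprime p)
    {S : Subgroup H} (hS : Inv x S) {s : H} (hs : s ∈ S) :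
    ∃ c ∈ S, x c = c ∧ ∃ t ∈ comS x S, s = c * t := by
  obtain ⟨t, ht, e⟩ := lift_fixed hx hcop (comS_inv hS) (gen_mem_one hs)
  exact ⟨s * t, mul_mem hs (comS_le hS ht), e, t⁻¹, inv_mem ht, by group⟩

theorem comS_comS [Group.IsSolvable H] (hx : x ^ p = 1) (hcop : (Nat.card H).Coprime p)
    {S : Subgroup H} (hS : Inv x S) : comS x (comS x S) = comS x S := by
  refine le_antisymm (comS_mono (comS_le hS)) ((Subgroup.closure_le _).mpr ?_)
  rintro c ⟨s, hs, i, rfl⟩
  obtain ⟨c, -, hc, t, ht, rfl⟩ := exists_fix_mul hx hcop hS hs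
  rw [map_mul, pow_fix hc, show (c * t)⁻¹ * (c * (x ^ i) t) = t⁻¹ * (x ^ i) t by group]
  exact gen_mem ht i

/-- Abelian invariant subgroups: `[S, P]` has no nontrivial fixed points. -/
theorem fix_eq_one_of_comm (hx : x ^ p = 1) (hcop : (Nat.card H).Coprime p) {S : Subgroup H}
    (hS : Inv x S) (hab : ∀ a ∈ S, ∀ b ∈ S, a * b = b * a) {w : H} (hw : w ∈ comS x S)
    (hwx : x w = w) : w = 1 := by
  let N : ℕ → H → H := fun n s => Nat.rec 1 (fun i r => r * (x ^ i) s) n
  have hNS : ∀ n, ∀ s ∈ S, N n s ∈ S := by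
    intro n s hs
    induction n with
    | zero => exact one_mem _
    | succ i ih => exact mul_mem ih (inv_pow hS i s hs)
  have hmul : ∀ n, ∀ a ∈ S, ∀ b ∈ S, N n (a * b) = N n a * N n b := by
    intro n a ha b hb
    induction n with
    | zero => simp [N]
    | succ i ih =>
      show N i (a * b) * (x ^ i) (a * b) = (N i a * (x ^ i) a) * (N i b * (x ^ i) b)
      rw [ih, map_mul]
      calc N i a * N i b * ((x ^ i) a * (x ^ i) b)
          = N i a * (N i b * (x ^ i) a) * (x ^ i) b := by group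
        _ = N i a * ((x ^ i) a * N i b) * (x ^ i) b := by
            rw [hab _ (hNS i b hb) _ (inv_pow hS i a ha)]
        _ = N i a * (x ^ i) a * (N i b * (x ^ i) b) := by group
  have hone : ∀ n, N n 1 = 1 := by
    intro n
    induction n with
    | zero => rfl
    | succ i ih => show N i 1 * (x ^ i) 1 = 1; rw [ih, map_one, one_mul]
  have hshift : ∀ s ∈ S, ∀ n, s * N n (x s) = N (n + 1) s := by
    intro s hs n
    induction n with
    | zero => simp [N]
    | succ i ih =>
      show s * (N i (x s) * (x ^ i) (x s)) = N (i + 1) s * (x ^ (i + 1)) s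
      rw [← mul_assoc, ih, pow_succ, MulAut.mul_apply]
  have hxN : ∀ s ∈ S, N p (x s) = N p s := by
    intro s hs
    have h := hshift s hs p
    rw [show N (p + 1) s = N p s * (x ^ p) s from rfl, hx, MulAut.one_apply,
      ← hab _ hs _ (hNS p s hs)] at h
    exact mul_left_cancel h
  have hker : ∀ c ∈ comS x S, c ∈ S ∧ N p c = 1 := by
    intro c hc
    induction hc using Subgroup.closure_induction with
    | mem c hc =>
      obtain ⟨s, hs, i, rfl⟩ := hc
      refine ⟨mul_mem (inv_mem hs) (inv_pow hS i s hs), ?_⟩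
      have hi : N p ((x ^ i) s) = N p s := by
        induction i with
        | zero => rfl
        | succ i ih => rw [pow_apply_succ, hxN _ (inv_pow hS i s hs), ih]
      rw [hmul p _ (inv_mem hs) _ (inv_pow hS i s hs), hi, ← hmul p _ (inv_mem hs) _ hs,
        inv_mul_cancel, hone]
    | one => exact ⟨one_mem _, hone p⟩
    | mul a b _ _ ha hb => exact ⟨mul_mem ha.1 hb.1, by rw [hmul p _ ha.1 _ hb.1, ha.2, hb.2, one_mul]⟩
    | inv a _ ha =>
      refine ⟨inv_mem ha.1, ?_⟩
      have h := hmul p _ ha.1 _ (inv_mem ha.1)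
      rw [mul_inv_cancel, hone, ha.2, one_mul] at h
      exact h.symm
  have hpow : ∀ n, N n w = w ^ n := by
    intro n
    induction n with
    | zero => simp [N]
    | succ i ih => show N i w * (x ^ i) w = w ^ (i + 1); rw [ih, pow_fix hwx, pow_succ]
  have h := (hker w hw).2
  rw [hpow] at h
  exact orderOf_eq_one_iff.mp (Nat.eq_one_of_dvd_coprimes hcop (orderOf_dvd_natCard w)
    (orderOf_dvd_of_pow_eq_one h))

end Cfsg.Agent.Transfer.Flavell
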