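import Cfsg.Agent.Transfer.Flavell.Hyp
import Cfsg.Agent.FGS3.PGroupFrattini
import Cfsg.Agent.Core.Frattini

/-! Flavell's lemma: the minimal counterexample is not a group of prime power order. -/

set_option autoImplicit false
set_option linter.unusedSectionVars false
set_option linter.style.haveILetI false

namespace Cfsg.Agent.Transfer.Flavell.Hyp

open Subgroup Cfsg.Agent.Transfer.Flavell
open scoped commutatorElement

universe u

variable {H : Type u} [Group H] [Finite H] {x : MulAut H} {p : ℕ} [Fact p.Prime]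

/-- A class two configuration is impossible. -/
theorem false_of_classTwo (hy : Hyp x p) (h2 : ∀ g h : H, ⁅g, h⁆ ∈ Subgroup.center H) : False := by
  haveI := hy.sol
  set Z := Subgroup.center H with hZ
  have hmem : ∀ g : H, g ∈ gen x g ⊔ Z := by
    intro g
    set J := gen x g ⊔ Z with hJ
    haveI hJn : J.Normal := ⟨fun a ha b => by
      rw [show b * a * b⁻¹ = ⁅b, a⁆ * a by rw [commutatorElement_def]; group]
      exact mul_mem (Subgroup.mem_sup_right (h2 b a)) ha⟩
    let y : ℕ → H := fun n => Nat.rec 1 (fun i r => r * (x ^ i) g) n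
    set π := QuotientGroup.mk' J with hπ
    have hi : ∀ i, π ((x ^ i) g) = π g := fun i => by
      refine (QuotientGroup.eq.mpr ?_).symm
      exact Subgroup.mem_sup_left (Subgroup.subset_closure ⟨i, rfl⟩)
    have hyn : ∀ n, π (y n) = π g ^ n := by
      intro n
      induction n with
      | zero => exact (map_one π).trans (pow_zero _).symm
      | succ i ih =>
        show π (y i * (x ^ i) g) = π g ^ (i + 1)
        rw [map_mul, ih, hi, pow_succ]
    have hshift : ∀ n, g * x (y n) = y (n + 1) := by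
      intro n
      induction n with
      | zero => simp [y]
      | succ i ih =>
        show g * x (y i * (x ^ i) g) = y (i + 1) * (x ^ (i + 1)) g
        rw [map_mul, ← mul_assoc, ih, pow_apply_succ]
    have hyZ : (y p)⁻¹ * x (y p) ∈ Z := by
      have h := hshift p
      rw [show y (p + 1) = y p * (x ^ p) g from rfl, hy.pow_eq_one, MulAut.one_apply,
        ← eq_inv_mul_iff_mul_eq] at h
      rw [h, show (y p)⁻¹ * (g⁻¹ * (y p * g)) = ⁅(y p)⁻¹, g⁻¹⁆ by rw [commutatorElement_def]; group]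
      exact h2 _ _
    obtain ⟨z, hz, hfix⟩ := lift_fixed hy.pow_eq_one hy.cop inv_center hyZ
    have hc : y p * z ∈ Z := hy.central_of_commutes hfix fun b => hy.center_fixed (h2 _ b)
    have hy1 : π g ^ p = 1 := by
      rw [← hyn, hπ, QuotientGroup.mk'_apply, QuotientGroup.eq_one_iff]
      have := mul_mem hc (inv_mem hz)
      rw [mul_inv_cancel_right] at this
      exact Subgroup.mem_sup_right this
    have h1 : π g = 1 := orderOf_eq_one_iff.mp (Nat.eq_one_of_dvd_coprimes hy.cop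
      ((orderOf_map_dvd π g).trans (orderOf_dvd_natCard g)) (orderOf_dvd_of_pow_eq_one hy1))
    exact (QuotientGroup.eq_one_iff g).mp h1
  have hone : ∀ g : H, ⁅g, x g⁆ = 1 := by
    intro g
    obtain ⟨a, ha, z, hz, rfl⟩ := Subgroup.mem_sup_of_normal_right.mp (hmem g)
    have hzc : ∀ b : H, b * z = z * b := Subgroup.mem_center_iff.mp hz
    have e : ⁅a * z, x (a * z)⁆ = ⁅a, x a⁆ := by
      rw [map_mul, hy.center_fixed hz]
      simp only [commutatorElement_def]
      calc a * z * (x a * z) * (a * z)⁻¹ * (x a * z)⁻¹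
          = a * (z * x a) * (z * z⁻¹) * a⁻¹ * z⁻¹ * (x a)⁻¹ := by group
        _ = a * (x a * z) * a⁻¹ * z⁻¹ * (x a)⁻¹ := by rw [← hzc, mul_inv_cancel, mul_one]
        _ = a * x a * (z * a⁻¹) * z⁻¹ * (x a)⁻¹ := by group
        _ = a * x a * a⁻¹ * (x a)⁻¹ := by rw [← hzc]; group
    rw [e]
    have hmem' : ⁅a, x a⁆ ∈ gen x (a * z) := by
      rw [commutatorElement_def]
      exact mul_mem (mul_mem (mul_mem ha (gen_inv _ a ha)) (inv_mem ha)) (inv_mem (gen_inv _ a ha))
    have := hy.center_inf_kk.le ⟨h2 a (x a), mem_kk hmem' (hy.center_fixed (h2 a (x a)))⟩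
    exact Subgroup.mem_bot.mp this
  have hcen : ∀ a b c : H, a * ⁅b, c⁆ * a⁻¹ = ⁅b, c⁆ := fun a b c => by
    rw [Subgroup.mem_center_iff.mp (h2 b c) a, mul_inv_cancel_right]
  have hl : ∀ a b c : H, ⁅a * b, c⁆ = ⁅b, c⁆ * ⁅a, c⁆ := fun a b c => by
    rw [show ⁅a * b, c⁆ = (a * ⁅b, c⁆ * a⁻¹) * ⁅a, c⁆ by simp only [commutatorElement_def]; group, hcen]
  have hr : ∀ a b c : H, ⁅a, b * c⁆ = ⁅a, b⁆ * ⁅a, c⁆ := fun a b c => by
    rw [show ⁅a, b * c⁆ = ⁅a, b⁆ * (b * ⁅a, c⁆ * b⁻¹) by simp only [commutatorElement_def]; group, hcen]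
  have hpol : ∀ a b : H, ⁅a, x b⁆ = ⁅x a, b⁆ := by
    intro a b
    have h := hone (a * b)
    rw [map_mul, hl, hr, hr, hone a, hone b, one_mul, mul_one] at h
    have h' : ⁅b, x a⁆ * ⁅a, x b⁆ = 1 := h
    rw [← commutatorElement_inv (x a) b, inv_mul_eq_one] at h'
    exact h'.symm
  have hsq : ∀ c : H, c⁻¹ * (x ^ 2) c ∈ Z := by
    intro c
    refine Subgroup.mem_center_iff.mpr fun a => commutatorElement_eq_one_iff_mul_comm.mp ?_
    have h3 : ⁅a, (x ^ 2) c⁆ = ⁅a, c⁆ := by
      rw [show (x ^ 2) c = x (x c) by rw [pow_two, MulAut.mul_apply], hpol, ← map_commutatorElement,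
        hy.center_fixed (h2 a c)]
    rw [hr, h3, ← hr, inv_mul_cancel, commutatorElement_one_right]
  have hx1 : ∀ c : H, c⁻¹ * x c ∈ Z := by
    have hm : ∀ m : ℕ, ∀ c : H, c⁻¹ * (x ^ (2 * m)) c ∈ Z := by
      intro m
      induction m with
      | zero => intro c; simp
      | succ i ih =>
        intro c
        rw [show c⁻¹ * (x ^ (2 * (i + 1))) c =
          (c⁻¹ * (x ^ (2 * i)) c) * (((x ^ (2 * i)) c)⁻¹ * (x ^ 2) ((x ^ (2 * i)) c)) by
          rw [← pow_apply_add, show 2 + 2 * i = 2 * (i + 1) by ring]; group]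
        exact mul_mem (ih c) (hsq _)
    intro c
    obtain ⟨m, hm'⟩ := (Fact.out : p.Prime).odd_of_ne_two hy.odd
    have h := hm (m + 1) c
    rw [show 2 * (m + 1) = p + 1 by omega, pow_succ, hy.pow_eq_one, one_mul] at h
    exact h
  have hZtop : comS x ⊤ ≤ Z := by
    refine (Subgroup.closure_le _).mpr ?_
    rintro c ⟨g, -, i, rfl⟩
    induction i with
    | zero => simp
    | succ i ih =>
      rw [show g⁻¹ * (x ^ (i + 1)) g = (g⁻¹ * (x ^ i) g) * (((x ^ i) g)⁻¹ * x ((x ^ i) g)) by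
        rw [pow_apply_succ]; group]
      exact mul_mem ih (hx1 _)
  rw [hy.com_top, top_le_iff] at hZtop
  refine hy.fail fun w hw => ?_
  rw [fix_eq_one_of_comm hy.pow_eq_one hy.cop inv_top
    (fun a _ b _ => (Subgroup.mem_center_iff.mp (hZtop ▸ Subgroup.mem_top a : a ∈ Z) b).symm)
    (hy.com_top.ge (Subgroup.mem_top w)) hw]
  exact one_mem _

/-- The minimal counterexample is not a `q`-group. -/
theorem not_isPGroup (hy : Hyp x p) {q : ℕ} [Fact q.Prime] (hq : IsPGroup q H) : False := by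
  haveI := hy.sol
  haveI := hq.isNilpotent
  haveI : Nontrivial H := by
    by_contra h
    rw [not_nontrivial_iff_subsingleton] at h
    exact hy.fail fun w _ => by rw [Subsingleton.elim w 1]; exact one_mem _
  set Z := Subgroup.center H with hZ
  set π := QuotientGroup.mk' Z with hπ
  set Z2 := (Subgroup.center (H ⧸ Z)).comap π with hZ2
  have hZ2n : Z2.Normal := Subgroup.Normal.comap inferInstance π
  have hmem2 : ∀ u : H, u ∈ Z2 ↔ ∀ g : H, ⁅u, g⁆ ∈ Z := by
    intro u
    rw [hZ2, Subgroup.mem_comap, Subgroup.mem_center_iff]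
    constructor
    · intro h g
      rw [← QuotientGroup.eq_one_iff, ← QuotientGroup.mk'_apply, ← hπ, map_commutatorElement,
        commutatorElement_eq_one_iff_mul_comm]
      exact (h (π g)).symm
    · intro h g
      obtain ⟨g, rfl⟩ := QuotientGroup.mk'_surjective Z g
      have := h g
      rw [← QuotientGroup.eq_one_iff, ← QuotientGroup.mk'_apply, ← hπ, map_commutatorElement,
        commutatorElement_eq_one_iff_mul_comm] at this
      exact this.symm
  have hZ2i : Inv x Z2 := fun u hu => (hmem2 _).mpr fun g => by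
    obtain ⟨t, rfl⟩ := x.surjective g
    rw [← map_commutatorElement]
    exact inv_center _ ((hmem2 u).mp hu t)
  have hfix2 : ∀ t ∈ Z2, x t = t → t ∈ Z := fun t ht htx =>
    hy.central_of_commutes htx fun g => hy.center_fixed ((hmem2 t).mp ht g)
  have hZ2top : Z2 ≠ ⊤ := fun e =>
    hy.false_of_classTwo fun g h => (hmem2 g).mp (e ▸ Subgroup.mem_top g) h
  set X := comS x Z2 with hX
  have hXZ2 : X ≤ Z2 := comS_le hZ2i
  have hXfix : ∀ w ∈ X, x w = w → w = 1 := fun w hw hwx => Subgroup.mem_bot.mp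
    (hy.center_inf_kk.le ⟨hfix2 w (hXZ2 hw) hwx, hy.sub Z2 hZ2i hZ2top ⟨hw, hwx⟩⟩)
  have hXfx : ∀ c : H, x c = c → ∀ u ∈ X, c * u = u * c := by
    intro c hc
    suffices X ≤ centralizer ({c} : Set H) from fun u hu =>
      (Subgroup.mem_centralizer_singleton_iff.mp (this hu)).symm
    refine (Subgroup.closure_le _).mpr ?_
    rintro _ ⟨s, hs, i, rfl⟩
    refine Subgroup.mem_centralizer_singleton_iff.mpr (commutatorElement_eq_one_iff_mul_comm.mp ?_)
    have hi : ⁅(x ^ i) s, c⁆ = ⁅s, c⁆ := by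
      conv_lhs => rw [← pow_fix hc i, ← map_commutatorElement]
      exact pow_fix (hy.center_fixed ((hmem2 s).mp hs c)) i
    rw [show ⁅s⁻¹ * (x ^ i) s, c⁆ = s⁻¹ * ⁅(x ^ i) s, c⁆ * ⁅s, c⁆⁻¹ * s by
      simp only [commutatorElement_def]; group, hi]
    group
  have hX0 : X ≠ ⊥ := by
    intro e
    have hle : Z2 ≤ Z := by
      intro u hu
      obtain ⟨c, hc, hcx, t, ht, rfl⟩ := exists_fix_mul hy.pow_eq_one hy.cop hZ2i hu
      rw [← hX, e, Subgroup.mem_bot] at ht
      rw [ht, mul_one]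
      exact hfix2 c hc hcx
    have hb : Subgroup.center (H ⧸ Z) = ⊥ := by
      rw [eq_bot_iff]
      intro y hy'
      obtain ⟨u, rfl⟩ := QuotientGroup.mk'_surjective Z y
      exact (QuotientGroup.eq_one_iff u).mpr (hle hy')
    rcases subsingleton_or_nontrivial (H ⧸ Z) with hs | hn
    · exact hZ2top (eq_top_iff.mpr fun u _ => by
        rw [hZ2, Subgroup.mem_comap, Subsingleton.elim (π u) 1]; exact one_mem _)
    · have := (hq.to_quotient Z).center_nontrivial
      exact absurd hb ((Subgroup.nontrivial_iff_ne_bot _).mp this)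
  -- invariant proper subgroups above `Z2` centralize `X`
  have hcent : ∀ S : Subgroup H, Inv x S → S ≠ ⊤ → Z2 ≤ S → S ≤ centralizer (X : Set H) := by
    intro S hS hS1 hle s hs
    obtain ⟨c, -, hcx, t, ht, rfl⟩ := exists_fix_mul hy.pow_eq_one hy.cop hS hs
    refine Subgroup.mem_centralizer_iff.mpr fun u hu => ?_
    have h1 : ⁅u, t⁆ = 1 := by
      have hz := (hmem2 u).mp (hXZ2 hu) t
      have hu' : u ∈ comS x S := comS_mono hle hu
      have hm : ⁅u, t⁆ ∈ comS x S := by
        rw [commutatorElement_def]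
        exact mul_mem (mul_mem (mul_mem hu' ht) (inv_mem hu')) (inv_mem ht)
      exact Subgroup.mem_bot.mp (hy.center_inf_kk.le ⟨hz, hy.sub S hS hS1 ⟨hm, hy.center_fixed hz⟩⟩)
    rw [← mul_assoc, ← hXfx c hcx u hu, mul_assoc, commutatorElement_eq_one_iff_mul_comm.mp h1, mul_assoc]
  have hCn : (centralizer (X : Set H)).Normal := ⟨fun c hc g => Subgroup.mem_centralizer_iff.mpr fun u hu => by
    have hz := (hmem2 u).mp (hXZ2 hu) g⁻¹
    have e : g⁻¹ * u * g = ⁅u, g⁻¹⁆⁻¹ * u := by rw [commutatorElement_def]; group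
    have hcz : c * ⁅u, g⁻¹⁆⁻¹ = ⁅u, g⁻¹⁆⁻¹ * c := Subgroup.mem_center_iff.mp (inv_mem hz) c
    have h : g⁻¹ * u * g * c = c * (g⁻¹ * u * g) := by
      rw [e, mul_assoc, Subgroup.mem_centralizer_iff.mp hc u hu, ← mul_assoc, ← hcz, mul_assoc]
    calc u * (g * c * g⁻¹) = g * (g⁻¹ * u * g * c) * g⁻¹ := by group
      _ = g * (c * (g⁻¹ * u * g)) * g⁻¹ := by rw [h]
      _ = g * c * g⁻¹ * u := by group⟩
  set C := centralizer (X : Set H) with hC
  have hCi : Inv x C := inv_centralizer (comS_inv hZ2i)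
  have hC1 : C ≠ ⊤ := by
    intro e
    apply hX0
    rw [eq_bot_iff]
    intro u hu
    have huZ : u ∈ Z := Subgroup.mem_center_iff.mpr fun g =>
      (Subgroup.mem_centralizer_iff.mp (e ▸ Subgroup.mem_top g : g ∈ C) u hu).symm
    exact Subgroup.mem_bot.mpr (hXfix u hu (hy.center_fixed huZ))
  -- maximal invariant normal subgroups
  let S0 : Set (Subgroup H) := {M | M.Normal ∧ Inv x M ∧ M ≠ ⊤}
  have hmaxex : ∀ A ∈ S0, ∃ M ∈ S0, A ≤ M ∧ ∀ N ∈ S0, M ≤ N → N = M := by
    intro A hA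
    obtain ⟨M, ⟨hM, hAM⟩, hmax⟩ := (wellFounded_gt (α := Subgroup H)).has_min
      {M | M ∈ S0 ∧ A ≤ M} ⟨A, hA, le_rfl⟩
    exact ⟨M, hM, hAM, fun N hN hle => (hle.eq_of_not_lt (hmax N ⟨hN, hAM.trans hle⟩)).symm⟩
  have hder : ∀ M : Subgroup H, M.Normal → Inv x M → (∀ N ∈ S0, M ≤ N → N = M) → M ≠ ⊤ →
      ⁅(⊤ : Subgroup H), ⊤⁆ ≤ M := by
    intro M hn hi hmax h1
    haveI := hn
    by_contra hc
    have hne : ⁅(⊤ : Subgroup H), ⊤⁆ ⊔ M ≠ ⊤ := by
      intro e
      apply h1
      refine frattini_nongenerating (eq_top_iff.mpr (le_trans e.ge (sup_le ?_ le_sup_left)))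
      exact ((commutator_def H).ge.trans Core.commutator_le_frattini_of_isNilpotent).trans le_sup_right
    have := hmax _ ⟨inferInstance, inv_sup (inv_commutator inv_top inv_top) hi, hne⟩ le_sup_right
    exact hc (le_sup_left.trans this.le)
  by_cases hall : ∀ N ∈ S0, (∀ N' ∈ S0, N ≤ N' → N' = N) → Z2 ≤ N
  · -- `C` is the only maximal one, so `[h, P] = H` outside `C`
    have huniq : ∀ A ∈ S0, A ≤ C := fun A hA => by
      obtain ⟨N, hN, hAN, hmax⟩ := hmaxex A hA
      exact hAN.trans (hcent N hN.2.1 hN.2.2 (hall N hN hmax))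
    have hdC : ⁅(⊤ : Subgroup H), ⊤⁆ ≤ C :=
      hder C hCn hCi (fun N hN hle => le_antisymm (huniq N hN) hle) hC1
    obtain ⟨h, -, hh⟩ := SetLike.exists_of_lt (lt_top_iff_ne_top.mpr hC1)
    have hcomm : ∀ a b : H, a * b * a⁻¹ * b⁻¹ ∈ C := fun a b => by
      simpa [commutatorElement_def] using
        hdC (Subgroup.commutator_mem_commutator (Subgroup.mem_top a) (Subgroup.mem_top b))
    haveI := hCn
    let T : Subgroup H :=
      { carrier := {g | g⁻¹ * x g ∈ C}
        one_mem' := by simp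
        mul_mem' := fun {a b} ha hb => by
          show (a * b)⁻¹ * x (a * b) ∈ C
          rw [map_mul, show (a * b)⁻¹ * (x a * x b) = (b⁻¹ * (a⁻¹ * x a) * b⁻¹⁻¹) * (b⁻¹ * x b) by group]
          exact mul_mem (hCn.conj_mem _ ha _) hb
        inv_mem' := fun {a} ha => by
          show a⁻¹⁻¹ * x a⁻¹ ∈ C
          rw [map_inv, show a⁻¹⁻¹ * (x a)⁻¹ = a * (a⁻¹ * x a)⁻¹ * a⁻¹ by group]
          exact hCn.conj_mem _ (inv_mem ha) _ }
    have hTC : T ≤ C := by
      refine huniq T ⟨⟨fun a ha g => ?_⟩, fun a ha => ?_, fun e => ?_⟩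
      · have hle : C ≤ T := fun c hc => mul_mem (inv_mem hc) (hCi c hc)
        rw [show g * a * g⁻¹ = (g * a * g⁻¹ * a⁻¹) * a by group]
        exact mul_mem (hle (hcomm g a)) ha
      · show (x a)⁻¹ * x (x a) ∈ C
        rw [← map_inv, ← map_mul]
        exact hCi _ ha
      · have hle : comS x ⊤ ≤ C := by
          refine (Subgroup.closure_le _).mpr ?_
          rintro c ⟨g, -, i, rfl⟩
          induction i with
          | zero => simp
          | succ i ih =>
            rw [show g⁻¹ * (x ^ (i + 1)) g = (g⁻¹ * (x ^ i) g) * (((x ^ i) g)⁻¹ * x ((x ^ i) g)) by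
              rw [pow_apply_succ]; group]
            exact mul_mem ih (show (x ^ i) g ∈ T from e ▸ Subgroup.mem_top _)
        rw [hy.com_top, top_le_iff] at hle
        exact hC1 hle
    have hgC : ¬ gen x h ≤ C := fun hle => hh (hTC
      (show h⁻¹ * x h ∈ C from hle (Subgroup.subset_closure ⟨1, by rw [pow_one]⟩)))
    have htop : gen x h ⊔ ⁅(⊤ : Subgroup H), ⊤⁆ = ⊤ := by
      by_contra hne
      exact hgC (le_sup_left.trans (huniq _ ⟨⟨fun a ha g => by
        rw [show g * a * g⁻¹ = ⁅g, a⁆ * a by rw [commutatorElement_def]; group]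
        exact mul_mem (Subgroup.mem_sup_right
          (Subgroup.commutator_mem_commutator (Subgroup.mem_top g) (Subgroup.mem_top a))) ha⟩,
        inv_sup (gen_inv h) (inv_commutator inv_top inv_top), hne⟩))
    have hgen : gen x h = ⊤ := frattini_nongenerating (eq_top_iff.mpr (htop.ge.trans
      (sup_le le_sup_left (((commutator_def H).ge.trans Core.commutator_le_frattini_of_isNilpotent).trans le_sup_right))))
    exact hy.fail fun w hw => mem_kk (hgen ▸ Subgroup.mem_top w) hw
  · push Not at hall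
    obtain ⟨M, ⟨hMn, hMi, hM1⟩, hMmax, hZM⟩ := hall
    haveI := hMn
    haveI := hZ2n
    have hZ_le : Z ≤ M := by
      by_contra hc
      have htop : Z ⊔ M = ⊤ := by
        by_contra hne
        exact hc (le_sup_left.trans (hMmax _ ⟨inferInstance, inv_sup inv_center hMi, hne⟩ le_sup_right).le)
      apply hM1
      rw [← top_le_iff, ← hy.com_top]
      refine (Subgroup.closure_le _).mpr ?_
      rintro c ⟨g, -, i, rfl⟩
      obtain ⟨z, hz, m, hm, rfl⟩ := Subgroup.mem_sup_of_normal_right.mp (htop ▸ Subgroup.mem_top g)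
      rw [map_mul, pow_fix (hy.center_fixed hz), show (z * m)⁻¹ * (z * (x ^ i) m) = m⁻¹ * (x ^ i) m by group]
      exact mul_mem (inv_mem hm) (inv_pow hMi i m hm)
    have hsupt : Z2 ⊔ M = ⊤ := by
      by_contra hne
      exact hZM (le_sup_left.trans (hMmax _ ⟨inferInstance, inv_sup hZ2i hMi, hne⟩ le_sup_right).le)
    have hXM : ∀ g : H, ∃ u ∈ X, ∃ m ∈ M, g = m * u := by
      intro g
      obtain ⟨m, hm, a, ha, rfl⟩ := Subgroup.mem_sup_of_normal_right.mp
        (show g ∈ M ⊔ Z2 by rw [sup_comm, hsupt]; exact Subgroup.mem_top g)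
      obtain ⟨c, hc, hcx, t, ht, rfl⟩ := exists_fix_mul hy.pow_eq_one hy.cop hZ2i ha
      exact ⟨t, ht, m * c, mul_mem hm (hZ_le (hfix2 c hc hcx)), by group⟩
    set B := comS x M with hB
    have hBM : B ≤ M := comS_le hMi
    have hBZ : ∀ b ∈ B, b ∈ Z → b = 1 := fun b hb hz => Subgroup.mem_bot.mp
      (hy.center_inf_kk.le ⟨hz, hy.sub M hMi hM1 ⟨hb, hy.center_fixed hz⟩⟩)
    have hBab : ∀ a ∈ B, ∀ b ∈ B, a * b = b * a := by
      suffices ⁅B, B⁆ = ⊥ from fun a ha b hb => commutatorElement_eq_one_iff_mul_comm.mp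
        (Subgroup.mem_bot.mp (this ▸ Subgroup.commutator_mem_commutator ha hb))
      by_contra hne
      have hn : (⁅B, B⁆ : Subgroup H).Normal := by
        refine Subgroup.normalizer_eq_top_iff.mp (eq_top_iff.mpr fun g _ => ?_)
        obtain ⟨u, hu, m, hm, rfl⟩ := hXM g
        have hM' : m ∈ normalizer ((⁅B, B⁆ : Subgroup H) : Set H) := by
          rw [mem_normalizer_iff_map_conj_eq, Subgroup.map_commutator,
            mem_normalizer_iff_map_conj_eq.mp (le_normalizer_comS M hm)]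
        have hu' : u ∈ normalizer ((⁅B, B⁆ : Subgroup H) : Set H) := by
          refine mem_normalizer_fintype fun d hd => ?_
          have h : ⁅B, B⁆ ≤ (⁅B, B⁆).comap (MulAut.conj u).toMonoidHom := by
            rw [Subgroup.commutator_le]
            intro a ha b hb
            show u * ⁅a, b⁆ * u⁻¹ ∈ ⁅B, B⁆
            have e : ∀ c : H, u * c * u⁻¹ = ⁅u, c⁆ * c := fun c => by rw [commutatorElement_def]; group
            have hza := Subgroup.mem_center_iff.mp ((hmem2 u).mp (hXZ2 hu) a)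
            have hzb := Subgroup.mem_center_iff.mp ((hmem2 u).mp (hXZ2 hu) b)
            rw [show u * ⁅a, b⁆ * u⁻¹ = ⁅u * a * u⁻¹, u * b * u⁻¹⁆ by
              simp only [commutatorElement_def]; group, e a, e b]
            generalize ⁅u, a⁆ = za at hza
            generalize ⁅u, b⁆ = zb at hzb
            rw [show ⁅za * a, zb * b⁆ = ⁅a, b⁆ by
              simp only [commutatorElement_def, mul_inv_rev]
              calc za * a * (zb * b) * (a⁻¹ * za⁻¹) * (b⁻¹ * zb⁻¹)
                  = za * (a * zb) * b * a⁻¹ * za⁻¹ * b⁻¹ * zb⁻¹ := by group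
                _ = za * (zb * a * b * a⁻¹) * za⁻¹ * b⁻¹ * zb⁻¹ := by rw [hzb a]; group
                _ = (zb * a * b * a⁻¹) * za * za⁻¹ * b⁻¹ * zb⁻¹ := by rw [← hza (zb * a * b * a⁻¹)]
                _ = zb * (a * b * a⁻¹ * b⁻¹) * zb⁻¹ := by group
                _ = a * b * a⁻¹ * b⁻¹ := by rw [← hzb (a * b * a⁻¹ * b⁻¹)]; group]
            exact Subgroup.commutator_mem_commutator ha hb
          exact h hd
        exact mul_mem hM' hu'
      obtain ⟨d, hd, hd1⟩ := (Subgroup.bot_or_exists_ne_one (⁅B, B⁆ ⊓ Z)).resolve_left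
        (haveI := hn; S0065.result _ hne)
      exact hd1 (hBZ d (Subgroup.commutator_le.mpr (fun a ha b hb => by
        rw [commutatorElement_def]
        exact mul_mem (mul_mem (mul_mem ha hb) (inv_mem ha)) (inv_mem hb)) hd.1) hd.2)
    have hXB : X ⊔ B = ⊤ := by
      rw [← top_le_iff, ← hy.com_top]
      refine (Subgroup.closure_le _).mpr ?_
      rintro c ⟨g, -, i, rfl⟩
      obtain ⟨u, hu, m, hm, rfl⟩ := hXM g
      obtain ⟨c0, -, hc0, t, ht, rfl⟩ := exists_fix_mul hy.pow_eq_one hy.cop hMi hm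
      rw [map_mul, map_mul, pow_fix hc0,
        show (c0 * t * u)⁻¹ * (c0 * (x ^ i) t * (x ^ i) u) = u⁻¹ * (t⁻¹ * (x ^ i) t) * (x ^ i) u by group]
      exact mul_mem (mul_mem (Subgroup.mem_sup_left (inv_mem hu))
        (Subgroup.mem_sup_right (mul_mem (inv_mem ht) (inv_pow (comS_inv hMi) i t ht))))
        (Subgroup.mem_sup_left (inv_pow (comS_inv hZ2i) i u hu))
    have hBZ2 : B ≤ Z2 := fun b hb => (hmem2 b).mpr fun g => by
      suffices g ∈ (centralizer ({π b} : Set (H ⧸ Z))).comap π by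
        rw [← QuotientGroup.eq_one_iff, ← QuotientGroup.mk'_apply, ← hπ, map_commutatorElement,
          commutatorElement_eq_one_iff_mul_comm]
        exact (Subgroup.mem_centralizer_singleton_iff.mp (Subgroup.mem_comap.mp this)).symm
      refine (hXB.ge.trans (sup_le (fun u hu => ?_) fun a ha => ?_)) (Subgroup.mem_top g) <;>
        refine Subgroup.mem_comap.mpr (Subgroup.mem_centralizer_singleton_iff.mpr ?_)
      · have := (hmem2 u).mp (hXZ2 hu) b
        rw [← QuotientGroup.eq_one_iff, ← QuotientGroup.mk'_apply, ← hπ, map_commutatorElement,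
          commutatorElement_eq_one_iff_mul_comm] at this
        exact this
      · rw [← map_mul, ← map_mul, hBab a ha b hb]
    exact hZ2top (top_le_iff.mp (hXB.ge.trans (sup_le hXZ2 hBZ2)))

end Cfsg.Agent.Transfer.Flavell.Hyp
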