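import Cfsg.Agent.Transfer.Flavell.Tools
import Cfsg.Agent.Transfer.Flavell.Central
import Cfsg.Agent.FGS2.SchurTransfer

/-! Flavell's lemma: the minimal invariant normal subgroup is not central. -/

set_option autoImplicit false
set_option linter.unusedSectionVars false
set_option linter.style.haveILetI false

namespace Cfsg.Agent.Transfer.Flavell.Hyp

open Subgroup Cfsg.Agent.Transfer.Flavell
open scoped commutatorElement

universe u

variable {H : Type u} [Group H] [Finite H] {x : MulAut H} {p : ℕ} [Fact p.Prime]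

set_option maxHeartbeats 400000 in
/-- The minimal invariant normal subgroup is not central. -/
theorem false_of_central (hy : Hyp x p) {q : ℕ} [Fact q.Prime] {V : Subgroup H} (hVn : V.Normal)
    (hVi : Inv x V) (hV0 : V ≠ ⊥) (hVq : ∀ a ∈ V, a ^ q = 1) (hVZ : V ≤ Subgroup.center H) : False := by
  haveI := hy.sol
  haveI := hVn
  -- `V ≤ H'`
  set N : Subgroup H := commutator H with hN
  have hNi : Inv x N := by rw [hN, commutator_def]; exact inv_commutator inv_top inv_top
  have hVN : V ≤ N := by
    intro z hz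
    have h1 : QuotientGroup.mk' N z = 1 :=
      fix_eq_one_of_comm (quotAut_pow N hNi hy.pow_eq_one) (quot_cop N hy.cop) inv_top
        (fun a _ b _ => by
          obtain ⟨a, rfl⟩ := QuotientGroup.mk'_surjective N a
          obtain ⟨b, rfl⟩ := QuotientGroup.mk'_surjective N b
          rw [← commutatorElement_eq_one_iff_mul_comm, ← map_commutatorElement, QuotientGroup.mk'_apply,
            QuotientGroup.eq_one_iff, hN, commutator_def]
          exact Subgroup.commutator_mem_commutator (Subgroup.mem_top a) (Subgroup.mem_top b))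
        ((comS_top_quot N hNi hy.com_top).ge (Subgroup.mem_top _))
        (by rw [← quotAut_mk', hy.center_fixed (hVZ hz)])
    exact (QuotientGroup.eq_one_iff z).mp h1
  -- an invariant Sylow subgroup
  obtain ⟨P, hP⟩ := exists_inv_sylow hy.pow_eq_one hy.cop (inv_top (x := x)) q
  set Q := (P : Subgroup (⊤ : Subgroup H)).map (⊤ : Subgroup H).subtype with hQ
  have hQp : IsPGroup q Q := P.2.map _
  have hQidx : ¬ q ∣ Q.index := by
    rw [hQ, Subgroup.index_map_subtype, Subgroup.index_top, mul_one]
    exact P.not_dvd_index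
  have hVq' : IsPGroup q V := fun v => ⟨1, Subtype.ext (by
    rw [pow_one, SubmonoidClass.coe_pow]; exact hVq v v.2)⟩
  have hVQ : V ≤ Q := by
    have h1 := ((hQp.toSylow hQidx).3 (hVq'.to_sup_of_normal_left hQp) le_sup_right)
    exact le_sup_left.trans h1.le
  have hQ1 : Q = ⊤ := by
    by_contra hne
    -- `V ≤ Φ(Q)`
    have hder : ∀ z : H, ∀ hz : z ∈ V, (⟨z, hVQ hz⟩ : Q) ∈ frattini Q := by
      intro z hz
      haveI := hQp.isNilpotent
      refine Core.commutator_le_frattini_of_isNilpotent ?_
      obtain ⟨h, hh⟩ := FGS2.pow_index_mem_commutator Q (hVZ hz) (hVN hz)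
      refine mem_of_pow_mem_coprime (a := Q.index) (b := q) ?_ ?_ ((Fact.out : q.Prime).coprime_iff_not_dvd.mpr hQidx).symm
      · exact hh
      · convert one_mem (commutator Q) using 1
        exact Subtype.ext (hVq z hz)
    set M := comS x Q ⊔ (kk x ⊓ Q) with hM
    have hcQ : comS x Q ≤ Q := comS_le hP
    have hMQ : M ≤ Q := sup_le hcQ inf_le_right
    have hQM : Q ≤ M := by
      have htop : M.subgroupOf Q = ⊤ := by
        refine frattini_nongenerating (eq_top_iff.mpr fun g _ => ?_)
        obtain ⟨c, hc, hcx, t, ht, e⟩ := exists_fix_mul hy.pow_eq_one hy.cop hP g.2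
        obtain ⟨k, hk, hkc⟩ := hy.quot V hVn hVi hV0 c hcx
        have hkQ : k ∈ Q := by
          have := mul_mem hc (inv_mem (hVQ hkc))
          rwa [show c * (k⁻¹ * c)⁻¹ = k by group] at this
        have hktM : k * t ∈ M := mul_mem (Subgroup.mem_sup_right ⟨hk, hkQ⟩) (Subgroup.mem_sup_left ht)
        have e' : g = (⟨k * t, hMQ hktM⟩ : Q) * ⟨k⁻¹ * c, hVQ hkc⟩ := Subtype.ext (by
          show (g : H) = k * t * (k⁻¹ * c)
          rw [e, mul_assoc k t, Subgroup.mem_center_iff.mp (hVZ hkc) t]
          group)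
        rw [e']
        exact mul_mem (Subgroup.mem_sup_left (Subgroup.mem_subgroupOf.mpr hktM))
          (Subgroup.mem_sup_right (hder _ hkc))
      exact Subgroup.subgroupOf_eq_top.mp htop
    refine hy.not_le_of_normal hVn hVi hV0 fun w hw => ?_
    have hwM : w ∈ ((comS x Q ⊔ (kk x ⊓ Q) : Subgroup H) : Set H) := hQM (hVQ hw.1)
    rw [Subgroup.coe_mul_of_right_le_normalizer_left _ _ (inf_le_right.trans (le_normalizer_comS Q))] at hwM
    obtain ⟨a, ha, k, hk, rfl⟩ := hwM
    have hax : a ∈ fixd x := by
      have hw2 : a * k ∈ fixd x := hw.2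
      have := mul_mem hw2 (inv_mem (kk_le_fixd hk.1))
      rwa [mul_inv_cancel_right] at this
    exact mul_mem (hy.sub Q hP hne ⟨ha, hax⟩) hk.1
  exact hy.not_isPGroup ((IsPGroup.of_equiv hQp ((MulEquiv.subgroupCongr hQ1).trans Subgroup.topEquiv)))

end Cfsg.Agent.Transfer.Flavell.Hyp
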