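import Cfsg.Agent.Transfer.Flavell.Basic
import Cfsg.Agent.S0065

/-! The minimal configuration for Flavell's fixed point lemma. -/

set_option autoImplicit false
set_option linter.unusedSectionVars false
set_option linter.style.haveILetI false

namespace Cfsg.Agent.Transfer.Flavell

open Subgroup
open scoped commutatorElement

universe u

variable {H : Type u} [Group H]

/-- The configuration of a minimal counterexample. -/
structure Hyp (x : MulAut H) (p : ℕ) : Prop where
  sol : Group.IsSolvable H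
  odd : p ≠ 2
  ord : orderOf x = p
  cop : (Nat.card H).Coprime p
  com_top : comS x ⊤ = ⊤
  sub : ∀ S : Subgroup H, Inv x S → S ≠ ⊤ → comS x S ⊓ fixd x ≤ kk x
  quot : ∀ N : Subgroup H, N.Normal → Inv x N → N ≠ ⊥ → ∀ w ∈ fixd x, ∃ k ∈ kk x, k⁻¹ * w ∈ N
  fail : ¬ fixd x ≤ kk x

variable {x : MulAut H} {p : ℕ}

theorem inv_top : Inv x (⊤ : Subgroup H) := fun _ _ => Subgroup.mem_top _

theorem inv_inf {S T : Subgroup H} (hS : Inv x S) (hT : Inv x T) : Inv x (S ⊓ T) :=
  fun s hs => ⟨hS s hs.1, hT s hs.2⟩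

theorem inv_sup {S T : Subgroup H} (hS : Inv x S) (hT : Inv x T) : Inv x (S ⊔ T) := by
  intro s hs
  have h : S ⊔ T ≤ (S ⊔ T).comap x.toMonoidHom :=
    sup_le (fun a ha => Subgroup.mem_sup_left (hS a ha)) (fun a ha => Subgroup.mem_sup_right (hT a ha))
  exact h hs

theorem inv_centralizer [Finite H] {S : Subgroup H} (hS : Inv x S) :
    Inv x (centralizer (S : Set H)) := by
  intro c hc
  refine mem_centralizer_iff.mpr fun s hs => ?_
  obtain ⟨t, ht, rfl⟩ : ∃ t ∈ S, x t = s :=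
    ⟨((res x hS).symm ⟨s, hs⟩ : S), ((res x hS).symm ⟨s, hs⟩).2,
      congrArg Subtype.val ((res x hS).apply_symm_apply ⟨s, hs⟩)⟩
  rw [← map_mul, ← map_mul, mem_centralizer_iff.mp hc t ht]

theorem inv_commutator {S T : Subgroup H} (hS : Inv x S) (hT : Inv x T) : Inv x ⁅S, T⁆ := by
  intro c hc
  have h : ⁅S, T⁆ ≤ (⁅S, T⁆).comap x.toMonoidHom := by
    rw [Subgroup.commutator_le]
    intro a ha b hb
    show x ⁅a, b⁆ ∈ ⁅S, T⁆
    rw [map_commutatorElement]
    exact Subgroup.commutator_mem_commutator (hS a ha) (hT b hb)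
  exact h hc

theorem inv_center : Inv x (Subgroup.center H) := by
  intro z hz
  refine Subgroup.mem_center_iff.mpr fun g => ?_
  obtain ⟨t, rfl⟩ := x.surjective g
  rw [← map_mul, ← map_mul, Subgroup.mem_center_iff.mp hz t]

namespace Hyp

variable [Finite H] [Fact p.Prime] (hy : Hyp x p)

include hy

theorem pow_eq_one : x ^ p = 1 := hy.ord ▸ pow_orderOf_eq_one x

/-- `K` contains no nontrivial invariant normal subgroup. -/
theorem normal_le_kk {N : Subgroup H} (hN : N.Normal) (hi : Inv x N) (h : N ≤ kk x) : N = ⊥ := by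
  by_contra hne
  refine hy.fail fun w hw => ?_
  obtain ⟨k, hk, hkw⟩ := hy.quot N hN hi hne w hw
  simpa using mul_mem hk (h hkw)

/-- Commutators of fixed points of an abelian invariant normal subgroup with fixed points lie in `K`. -/
theorem comm_mem_kk {V : Subgroup H} (hV : V.Normal) (hi : Inv x V) (hne : V ≠ ⊥)
    (hab : ∀ a ∈ V, ∀ b ∈ V, a * b = b * a) {w c : H} (hw : w ∈ V) (hwx : x w = w) (hc : x c = c) :
    ⁅w, c⁆ ∈ kk x := by
  obtain ⟨k, hk, hv⟩ := hy.quot V hV hi hne c hc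
  obtain ⟨v, rfl⟩ : ∃ v, c = k * v := ⟨k⁻¹ * c, by group⟩
  rw [inv_mul_cancel_left] at hv
  have h1 : w * k * w⁻¹ ∈ kk x := (mem_normalizer_iff.mp (fixd_le_normalizer_kk hwx) k).mp hk
  have e : ⁅w, k * v⁆ = (w * k * w⁻¹) * k⁻¹ := by
    rw [commutatorElement_def, show w * (k * v) * w⁻¹ * (k * v)⁻¹ =
      w * k * (v * w⁻¹) * v⁻¹ * k⁻¹ by group, hab v hv w⁻¹ (inv_mem hw)]
    group
  rw [e]
  exact mul_mem h1 (inv_mem hk)

/-- The fixed points of a minimal invariant normal subgroup are not in `K`. -/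
theorem not_le_of_normal {V : Subgroup H} (hV : V.Normal) (hi : Inv x V) (hne : V ≠ ⊥) :
    ¬ V ⊓ fixd x ≤ kk x := by
  intro h
  refine hy.fail fun w hw => ?_
  obtain ⟨k, hk, hkw⟩ := hy.quot V hV hi hne w hw
  have hfix : k⁻¹ * w ∈ fixd x := mul_mem (inv_mem (kk_le_fixd hk)) hw
  simpa using mul_mem hk (h ⟨hkw, hfix⟩)

theorem center_fixed {z : H} (hz : z ∈ Subgroup.center H) : x z = z := by
  by_contra hne
  set N := comS x (Subgroup.center H) with hN
  have hNn : N.Normal := ⟨fun a ha g => by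
    rw [Subgroup.mem_center_iff.mp (comS_le inv_center ha) g, mul_inv_cancel_right]; exact ha⟩
  have hN0 : N ≠ ⊥ := by
    intro e
    apply hne
    have h := gen_mem_one (x := x) hz
    rw [← hN, e, Subgroup.mem_bot, inv_mul_eq_one] at h
    exact h.symm
  refine hy.not_le_of_normal hNn (comS_inv inv_center) hN0 fun w hw => ?_
  rw [fix_eq_one_of_comm hy.pow_eq_one hy.cop inv_center
    (fun a ha b _ => (Subgroup.mem_center_iff.mp ha b).symm) hw.1 hw.2]
  exact one_mem _

theorem center_inf_kk : Subgroup.center H ⊓ kk x = ⊥ :=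
  hy.normal_le_kk ⟨fun a ha g => by
    rw [Subgroup.mem_center_iff.mp ha.1 g, mul_inv_cancel_right]; exact ha⟩
    (fun a ha => by rw [hy.center_fixed ha.1]; exact ha) inf_le_right

/-- A fixed element centralizing every `h⁻¹ x(h)` is central. -/
theorem central_of_commutes {t : H} (ht : x t = t)
    (h : ∀ g : H, x ⁅t, g⁆ = ⁅t, g⁆) : t ∈ Subgroup.center H := by
  have hle : comS x ⊤ ≤ centralizer ({t} : Set H) := by
    refine (Subgroup.closure_le _).mpr ?_
    rintro c ⟨g, -, i, rfl⟩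
    have hi : ⁅t, (x ^ i) g⁆ = ⁅t, g⁆ := by
      induction i with
      | zero => rfl
      | succ i ih =>
        rw [pow_apply_succ]
        calc ⁅t, x ((x ^ i) g)⁆ = ⁅x t, x ((x ^ i) g)⁆ := by rw [ht]
          _ = x ⁅t, (x ^ i) g⁆ := (map_commutatorElement _ _ _).symm
          _ = ⁅t, g⁆ := by rw [ih, h g]
    refine Subgroup.mem_centralizer_singleton_iff.mpr ?_
    rw [commutatorElement_def, commutatorElement_def] at hi
    have e : (x ^ i) g * t⁻¹ * ((x ^ i) g)⁻¹ = g * t⁻¹ * g⁻¹ := by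
      have := congrArg (fun y => t⁻¹ * y) hi
      simpa [mul_assoc] using this
    calc g⁻¹ * (x ^ i) g * t = g⁻¹ * ((x ^ i) g * t⁻¹ * ((x ^ i) g)⁻¹)⁻¹ * (x ^ i) g := by group
      _ = g⁻¹ * (g * t⁻¹ * g⁻¹)⁻¹ * (x ^ i) g := by rw [e]
      _ = t * (g⁻¹ * (x ^ i) g) := by group
  rw [hy.com_top] at hle
  exact Subgroup.mem_center_iff.mpr fun g => Subgroup.mem_centralizer_singleton_iff.mp (hle (Subgroup.mem_top g))

end Hyp

end Cfsg.Agent.Transfer.Flavell
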