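import Cfsg.Agent.Transfer.Flavell.Hyp

/-! Tools for Flavell's lemma: induced automorphisms, minimal invariant normal subgroups, invariant Sylow subgroups. -/

set_option autoImplicit false
set_option linter.unusedSectionVars false
set_option linter.style.haveILetI false

namespace Cfsg.Agent.Transfer.Flavell

open Subgroup
open scoped commutatorElement

universe u

variable {H : Type u} [Group H] [Finite H] {x : MulAut H} {p : ℕ} [Fact p.Prime]

theorem map_eq_of_inv {N : Subgroup H} (hN : Inv x N) : N.map x.toMonoidHom = N := by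
  refine Subgroup.eq_of_le_of_card_ge ?_ (Subgroup.card_map_of_injective x.injective).ge
  rintro _ ⟨n, hn, rfl⟩
  exact hN n hn

/-- The automorphism of a quotient by an invariant subgroup. -/
noncomputable def quotAut (x : MulAut H) (N : Subgroup H) [N.Normal] (hN : Inv x N) : MulAut (H ⧸ N) :=
  QuotientGroup.congr N N x (map_eq_of_inv hN)

theorem quotAut_mk' (N : Subgroup H) [N.Normal] (hN : Inv x N) (h : H) :
    QuotientGroup.mk' N (x h) = quotAut x N hN (QuotientGroup.mk' N h) := rfl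

theorem quotAut_pow (N : Subgroup H) [N.Normal] (hN : Inv x N) (hx : x ^ p = 1) :
    quotAut x N hN ^ p = 1 := by
  refine MulEquiv.ext fun z => ?_
  obtain ⟨h, rfl⟩ := QuotientGroup.mk'_surjective N z
  rw [← pow_eqv _ (quotAut_mk' N hN), hx]
  rfl

theorem quot_cop (N : Subgroup H) [N.Normal] (hcop : (Nat.card H).Coprime p) :
    (Nat.card (H ⧸ N)).Coprime p :=
  hcop.coprime_dvd_left N.card_quotient_dvd_card

theorem comS_top_quot (N : Subgroup H) [N.Normal] (hN : Inv x N) (h : comS x ⊤ = ⊤) :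
    comS (quotAut x N hN) ⊤ = ⊤ := by
  have e := comS_map (QuotientGroup.mk' N) (quotAut_mk' N hN) (⊤ : Subgroup H)
  rw [h, Subgroup.map_top_of_surjective _ (QuotientGroup.mk'_surjective N)] at e
  exact e.symm

/-- A nontrivial abelian invariant normal subgroup of prime exponent, minimal such. -/
theorem exists_minimal [Group.IsSolvable H] [Nontrivial H] (x : MulAut H) :
    ∃ (V : Subgroup H) (q : ℕ), q.Prime ∧ V.Normal ∧ Inv x V ∧ V ≠ ⊥ ∧
      (∀ a ∈ V, ∀ b ∈ V, a * b = b * a) ∧ (∀ a ∈ V, a ^ q = 1) ∧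
      ∀ T : Subgroup H, T.Normal → Inv x T → T ≤ V → T = ⊥ ∨ T = V := by
  obtain ⟨V, ⟨hVn, hVi, hV0⟩, hmin'⟩ := (wellFounded_lt (α := Subgroup H)).has_min
    {V | V.Normal ∧ Inv x V ∧ V ≠ ⊥} ⟨⊤, inferInstance, inv_top, top_ne_bot⟩
  have hmin : ∀ T : Subgroup H, T.Normal → Inv x T → T ≤ V → T = ⊥ ∨ T = V := fun T hn hi hle =>
    or_iff_not_imp_left.mpr fun h0 => hle.eq_of_not_lt (hmin' T ⟨hn, hi, h0⟩)
  haveI := hVn
  have hab : ∀ a ∈ V, ∀ b ∈ V, a * b = b * a := by
    rcases hmin ⁅V, V⁆ inferInstance (inv_commutator hVi hVi) (Subgroup.commutator_le_right V V) with h | h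
    · intro a ha b hb
      exact commutatorElement_eq_one_iff_mul_comm.mp
        (Subgroup.mem_bot.mp (h ▸ Subgroup.commutator_mem_commutator ha hb))
    · exfalso
      have hle : ∀ n, V ≤ derivedSeries H n := by
        intro n
        induction n with
        | zero => exact le_top
        | succ i ih => rw [derivedSeries_succ]; exact h.ge.trans (Subgroup.commutator_mono ih ih)
      obtain ⟨n, hn⟩ := (‹Group.IsSolvable H›).solvable
      exact hV0 (le_bot_iff.mp ((hle n).trans hn.le))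
  haveI : Nontrivial V := (Subgroup.nontrivial_iff_ne_bot V).mpr hV0
  obtain ⟨q, hq, hdvd⟩ := Nat.exists_prime_and_dvd (Finite.one_lt_card (α := V)).ne'
  haveI := Fact.mk hq
  refine ⟨V, q, hq, hVn, hVi, hV0, hab, ?_, hmin⟩
  let T : Subgroup H :=
    { carrier := {v | v ∈ V ∧ v ^ q = 1}
      one_mem' := ⟨one_mem _, one_pow _⟩
      mul_mem' := fun {a b} ha hb => ⟨mul_mem ha.1 hb.1,
        by rw [Commute.mul_pow (hab a ha.1 b hb.1), ha.2, hb.2, one_mul]⟩
      inv_mem' := fun {a} ha => ⟨inv_mem ha.1, by rw [_root_.inv_pow, ha.2, inv_one]⟩ }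
  have hT : T = V := by
    refine (hmin T ⟨fun a ha g => ⟨hVn.conj_mem a ha.1 g, by rw [conj_pow, ha.2, mul_one, mul_inv_cancel]⟩⟩
      (fun a ha => ⟨hVi a ha.1, by rw [← map_pow, ha.2, map_one]⟩) (fun a ha => ha.1)).resolve_left ?_
    intro e
    obtain ⟨v, hv⟩ := exists_prime_orderOf_dvd_card' q hdvd
    have hv1 : (v : H) ∈ T := ⟨v.2, by rw [← SubmonoidClass.coe_pow, ← hv, pow_orderOf_eq_one]; rfl⟩
    rw [e, Subgroup.mem_bot, OneMemClass.coe_eq_one] at hv1
    rw [hv1, orderOf_one] at hv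
    exact hq.ne_one hv.symm
  intro a ha
  exact (hT.ge ha).2

/-- An invariant Sylow subgroup of an invariant subgroup. -/
theorem exists_inv_sylow (hx : x ^ p = 1) (hcop : (Nat.card H).Coprime p) {S : Subgroup H}
    (hS : Inv x S) (r : ℕ) [Fact r.Prime] : ∃ P : Sylow r S, Inv x ((P : Subgroup S).map S.subtype) := by
  have hG : IsPGroup p (Subgroup.zpowers (res x hS)) := by
    rw [IsPGroup.iff_card]
    rcases (Nat.dvd_prime (Fact.out : p.Prime)).mp
      (orderOf_dvd_of_pow_eq_one (res_pow_card hx hS)) with e | e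
    · exact ⟨0, by rw [Nat.card_zpowers, e, pow_zero]⟩
    · exact ⟨1, by rw [Nat.card_zpowers, e, pow_one]⟩
  have hnd : ¬ p ∣ Nat.card (Sylow r S) := by
    intro h
    obtain ⟨P⟩ : Nonempty (Sylow r S) := inferInstance
    have h1 : Nat.card (Sylow r S) ∣ Nat.card H :=
      ((Sylow.card_dvd_index P).trans (Subgroup.index_dvd_card _)).trans (Subgroup.card_subgroup_dvd_card S)
    exact (Fact.out : p.Prime).coprime_iff_not_dvd.mp hcop.symm (h.trans h1)
  obtain ⟨P, hP⟩ := hG.nonempty_fixed_point_of_prime_not_dvd_card (Sylow r S) hnd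
  refine ⟨P, ?_⟩
  rintro _ ⟨s, hs, rfl⟩
  refine ⟨res x hS s, ?_, rfl⟩
  have e := congrArg (Sylow.toSubgroup) (hP ⟨res x hS, Subgroup.mem_zpowers _⟩)
  rw [← e]
  exact ⟨s, hs, rfl⟩

theorem mem_of_pow_mem_coprime {G : Type*} [Group G] {K : Subgroup G} {g : G} {a b : ℕ}
    (ha : g ^ a ∈ K) (hb : g ^ b ∈ K) (hc : a.Coprime b) : g ∈ K := by
  have e : ((a.gcd b : ℕ) : ℤ) = a * a.gcdA b + b * a.gcdB b := Nat.gcd_eq_gcd_ab a b
  rw [hc.gcd_eq_one, Nat.cast_one] at e
  have h : g ^ (1 : ℤ) ∈ K := by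
    rw [e, zpow_add, zpow_mul, zpow_mul, zpow_natCast, zpow_natCast]
    exact mul_mem (zpow_mem ha _) (zpow_mem hb _)
  rwa [zpow_one] at h

end Cfsg.Agent.Transfer.Flavell
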